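import Cfsg.Agent.H112.GlueFin

/-!
# Generation of alternating and symmetric groups by consecutive cycles (helper112)
-/

set_option autoImplicit false

namespace Cfsg.Agent.H112

open Cfsg.Agent.Phan
open Equiv (Perm swap)
open Equiv.Perm (sign)

theorem dec_sw : ∃ τ : Perm (Fin 3), sign τ = 1 ∧ τ = swap 0 1 * swap 1 2 := ⟨_, by decide, rfl⟩

/-- `swap` along an injection -/
theorem swap_map {m n : ℕ} (e : Fin m → Fin n) (he : Function.Injective e) (x y z : Fin m) :
    swap (e x) (e y) (e z) = e (swap x y z) := by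
  by_cases h1 : z = x
  · subst h1; rw [Equiv.swap_apply_left, Equiv.swap_apply_left]
  · by_cases h2 : z = y
    · subst h2; rw [Equiv.swap_apply_right, Equiv.swap_apply_right]
    · rw [Equiv.swap_apply_of_ne_of_ne h1 h2,
        Equiv.swap_apply_of_ne_of_ne (fun h => h1 (he h)) (fun h => h2 (he h))]

theorem alt_closure {n : ℕ} (M : Subgroup (alternatingGroup (Fin n)))
    (h : ∀ (k : ℕ) (hk : k + 3 ≤ n) (s : alternatingGroup (Fin n)) (τ : alternatingGroup (Fin 3)),
      s.1 ∘ (sh k hk : Fin 3 → Fin n) = sh k hk ∘ τ.1 →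
      (∀ x, x ∉ Set.range (sh k hk : Fin 3 → Fin n) → s.1 x = x) → s ∈ M) : M = ⊤ := by
  rcases Nat.lt_or_ge n 2 with hn | hn
  · have : Subsingleton (alternatingGroup (Fin n)) := by
      have : Subsingleton (Perm (Fin n)) := by
        have : Subsingleton (Fin n) := by
          rw [Fin.subsingleton_iff_le_one]; omega
        infer_instance
      infer_instance
    exact Subsingleton.elim _ _
  obtain ⟨N, rfl⟩ : ∃ N, n = N + 1 := ⟨n - 1, by omega⟩
  set M' : Subgroup (Perm (Fin (N + 1))) := M.map (alternatingGroup (Fin (N + 1))).subtype with hM'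
  let sw : Fin N → Perm (Fin (N + 1)) := fun i => swap i.castSucc i.succ
  have hsw : ∀ i, sw i * sw i = 1 := fun i => Equiv.swap_mul_self _ _
  have hsgn : ∀ i, sign (sw i) = -1 := by
    intro i
    apply Equiv.Perm.sign_swap
    exact (Fin.castSucc_lt_succ (i := i)).ne
  -- consecutive
  have h1 : ∀ k : ℕ, ∀ hk : k + 1 < N, sw ⟨k, by omega⟩ * sw ⟨k + 1, hk⟩ ∈ M' := by
    intro k hk
    have he : sign (sw ⟨k, by omega⟩ * sw ⟨k + 1, hk⟩) = 1 := by
      rw [map_mul, hsgn, hsgn]; rfl
    obtain ⟨τ, hτ, hτe⟩ := dec_sw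
    have a0 : (⟨k, by omega⟩ : Fin N).castSucc = sh k (by omega : k + 3 ≤ N + 1) 0 := by
      apply Fin.ext; simp [sh_val]
    have a1 : (⟨k, by omega⟩ : Fin N).succ = sh k (by omega : k + 3 ≤ N + 1) 1 := by
      apply Fin.ext; simp [sh_val]
    have a2 : (⟨k + 1, hk⟩ : Fin N).castSucc = sh k (by omega : k + 3 ≤ N + 1) 1 := by
      apply Fin.ext; simp [sh_val]
    have a3 : (⟨k + 1, hk⟩ : Fin N).succ = sh k (by omega : k + 3 ≤ N + 1) 2 := by
      apply Fin.ext; simp [sh_val]
    have h2 := h k (by omega) ⟨sw ⟨k, by omega⟩ * sw ⟨k + 1, hk⟩, Equiv.Perm.mem_alternatingGroup.2 he⟩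
      ⟨τ, Equiv.Perm.mem_alternatingGroup.2 hτ⟩ (by
        funext i
        simp only [Function.comp_apply, sw]
        rw [Equiv.Perm.mul_apply, a0, a1, a2, a3, swap_map _ (sh_injective _ _), swap_map _ (sh_injective _ _), hτe]
        rfl) (by
        intro x hx
        have hx0 : ∀ i, x ≠ sh k (by omega : k + 3 ≤ N + 1) i := fun i hi => hx ⟨i, hi.symm⟩
        simp only [sw]
        rw [Equiv.Perm.mul_apply, a0, a1, a2, a3, Equiv.swap_apply_of_ne_of_ne (hx0 1) (hx0 2),
          Equiv.swap_apply_of_ne_of_ne (hx0 0) (hx0 1)])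
    exact ⟨_, h2, rfl⟩
  -- `sw i * sw j`
  have h2 : ∀ (d k : ℕ) (hk : k + d < N), sw ⟨k, by omega⟩ * sw ⟨k + d, hk⟩ ∈ M' := by
    intro d
    induction d with
    | zero => intro k hk; rw [show (⟨k + 0, hk⟩ : Fin N) = ⟨k, by omega⟩ from rfl, hsw]; exact one_mem _
    | succ d ih =>
      intro k hk
      have e1 := ih k (by omega)
      have e2 := h1 (k + d) hk
      have e3 := mul_mem e1 e2
      have e4 : sw ⟨k, by omega⟩ * sw ⟨k + d, by omega⟩ * (sw ⟨k + d, by omega⟩ * sw ⟨k + d + 1, hk⟩) =
          sw ⟨k, by omega⟩ * sw ⟨k + (d + 1), hk⟩ := by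
        calc _ = sw ⟨k, by omega⟩ * (sw ⟨k + d, by omega⟩ * sw ⟨k + d, by omega⟩) * sw ⟨k + d + 1, hk⟩ := by group
          _ = _ := by rw [hsw, mul_one]; rfl
      rw [e4] at e3
      exact e3
  have h3 : ∀ i j : Fin N, sw i * sw j ∈ M' := by
    intro i j
    rcases le_total i j with hij | hij
    · have := h2 ((j : ℕ) - i) i (by have := j.2; have : (i : ℕ) ≤ j := hij; omega)
      have e : (⟨(i : ℕ) + (j - i), by have := j.2; have : (i : ℕ) ≤ j := hij; omega⟩ : Fin N) = j := by
        apply Fin.ext; have : (i : ℕ) ≤ j := hij; simp only; omega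
      rw [e] at this
      exact this
    · have := h2 ((i : ℕ) - j) j (by have := i.2; have : (j : ℕ) ≤ i := hij; omega)
      have e : (⟨(j : ℕ) + (i - j), by have := i.2; have : (j : ℕ) ≤ i := hij; omega⟩ : Fin N) = i := by
        apply Fin.ext; have : (j : ℕ) ≤ i := hij; simp only; omega
      rw [e] at this
      have h4 := inv_mem this
      rw [mul_inv_rev] at h4
      have e5 : ∀ i, (sw i)⁻¹ = sw i := fun i => inv_eq_of_mul_eq_one_right (hsw i)
      rw [e5, e5] at h4
      exact h4
  have i0 : Fin N := ⟨0, by omega⟩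
  have h4 : ∀ π : Perm (Fin (N + 1)), (sign π = 1 → π ∈ M') ∧ (sign π = -1 → π * sw i0 ∈ M') := by
    intro π
    have hπ : π ∈ Submonoid.closure (Set.range sw) := by
      rw [Equiv.Perm.mclosure_swap_castSucc_succ]; trivial
    induction hπ using Submonoid.closure_induction_right with
    | one => exact ⟨fun _ => one_mem _, fun h => absurd h (by rw [map_one]; decide)⟩
    | mul_right x hx y hy ih =>
      obtain ⟨i, rfl⟩ := hy
      rw [map_mul, hsgn]
      constructor
      · intro h5
        have h6 : sign x = -1 := by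
          rcases Int.units_eq_one_or (sign x) with h7 | h7
          · rw [h7] at h5; exact absurd h5 (by decide)
          · exact h7
        have h8 := mul_mem (ih.2 h6) (h3 i0 i)
        have e : x * sw i0 * (sw i0 * sw i) = x * sw i := by
          calc _ = x * (sw i0 * sw i0) * sw i := by group
            _ = _ := by rw [hsw, mul_one]
        rwa [e] at h8
      · intro h5
        have h6 : sign x = 1 := by
          rcases Int.units_eq_one_or (sign x) with h7 | h7
          · exact h7
          · rw [h7] at h5; exact absurd h5 (by decide)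
        rw [mul_assoc]
        exact mul_mem (ih.1 h6) (h3 i i0)
  rw [eq_top_iff]
  intro s _
  obtain ⟨s', hs', e⟩ := (h4 s.1).1 (Equiv.Perm.mem_alternatingGroup.1 s.2)
  have : s' = s := Subtype.ext e
  rw [← this]; exact hs'

end Cfsg.Agent.H112
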