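import Cfsg.Agent.H112.Frames

/-!
# The inductive step of Phan's theorem for `q = 2` (helper112)
-/

set_option autoImplicit false

namespace Cfsg.Agent.H112

open Matrix Cfsg Cfsg.Agent.Phan Cfsg.Agent.H434 Cfsg.Agent.Phan.Cover
open Cfsg.Agent.LieClassical.HermBasic

section ctx

open Cfsg.Agent.H434.Cover2

variable {M H Ω K A : Type*} [Group M] [Group H] [Group K] [Group A] [MulAction M Ω] {C : Ctx M H Ω K A}

theorem same_smul (h : C.Hyp) (k : K) {w u u' : Ω} (hs : Same C w u u') :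
    Same C (C.ι k • w) (C.ι k • u) (C.ι k • u') := by
  intro x y y' hx hy hy' ey ey' exy
  have key : ∀ (z : M × H) (v : Ω), z.1 • C.p = C.ι k • v → (C.kh k⁻¹ * z).1 • C.p = v := by
    intro z v hz
    rw [Prod.fst_mul, mul_smul, hz, Ctx.kh_fst, map_inv, inv_smul_smul]
  have h1 := hs _ _ _ (key x w hx) (key y u hy) (key y' u' hy') (Ctx.E_left _ ey) (Ctx.E_left _ ey')
    (by rwa [_root_.mul_inv_rev, mul_assoc, inv_mul_cancel_left])
  rwa [_root_.mul_inv_rev, mul_assoc, inv_mul_cancel_left] at h1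

theorem same_smul_iff (h : C.Hyp) (k : K) {w u u' : Ω} (hs : Same C (C.ι k • w) (C.ι k • u) (C.ι k • u')) :
    Same C w u u' := by
  have := same_smul h k⁻¹ hs
  rwa [map_inv, inv_smul_smul, inv_smul_smul, inv_smul_smul] at this

/-- neighbours of the base point -/
theorem same_of_adj_base (h : C.Hyp)
    (htri : ∀ u v w : Ω, C.adj u v → C.adj u w → C.adj v w → C.Tri u v w) {w u u' : Ω}
    (hw : C.adj C.p w) (hu : C.adj C.p u) (hu' : C.adj C.p u') (huw : C.adj u w) (hu'w : C.adj u' w) :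
    Same C w u u' := by
  intro x y y' hx hy hy' ey ey' exy
  have hp : C.p = (1 : M × H).1 • C.p := by rw [Prod.fst_one, one_smul]
  have e1 : C.E (1⁻¹ * x) := by
    refine h.close (x := y) ?_ ?_ exy
    · rw [hy, ← hp, hx]
      exact htri _ _ _ (h.symm hu) huw hw
    · rw [mul_one]; exact h.E_inv ey
  refine h.close (x := 1) ?_ (by rwa [inv_one, one_mul]) e1
  rw [← hp, hy', hx]
  exact htri _ _ _ hu' hw hu'w

/-- the base point itself -/
theorem same_base (h : C.Hyp) {u u' : Ω} : Same C C.p u u' := by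
  intro x y y' hx hy hy' ey ey' exy
  have e1 : C.E (y⁻¹ * 1) := by rw [mul_one]; exact h.E_inv ey
  obtain ⟨k, hk⟩ := h.lift_uniq e1 exy (by rw [hx, Prod.fst_one, one_smul])
  rw [hk, one_mul]
  exact Ctx.E_right _ (h.E_inv ey')

/-- the rectangle argument -/
theorem same_rect (h : C.Hyp) {s : M × H} (hs : C.E s) {d1 : M × H} (k2 k2' : K)
    (hc : d1 * C.kh k2 = C.kh k2 * d1) (hc' : d1 * C.kh k2' = C.kh k2' * d1) (k1 : K)
    (hk1 : s⁻¹ * d1 * s = C.kh k1) :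
    Same C (d1.1 • C.p) ((C.kh k2 * s).1 • C.p) ((C.kh k2' * s).1 • C.p) := by
  intro x y y' hx hy hy' ey ey' exy
  have key : ∀ k : K, d1 * C.kh k = C.kh k * d1 → C.E ((C.kh k * s)⁻¹ * d1) := by
    intro k hk
    have e : (C.kh k * s)⁻¹ * d1 = C.kh k1 * s⁻¹ * C.kh k⁻¹ := by
      rw [← hk1, Ctx.kh_inv]
      have : (C.kh k)⁻¹ * d1 = d1 * (C.kh k)⁻¹ := by
        rw [inv_mul_eq_iff_eq_mul, ← mul_assoc, ← hk, mul_inv_cancel_right]
      calc (C.kh k * s)⁻¹ * d1 = s⁻¹ * ((C.kh k)⁻¹ * d1) := by group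
        _ = s⁻¹ * (d1 * (C.kh k)⁻¹) := by rw [this]
        _ = _ := by group
    rw [e]
    exact Ctx.E_right _ (Ctx.E_left _ (h.E_inv hs))
  obtain ⟨a, ha⟩ := h.lift_uniq (x := 1) (y := C.kh k2 * s) (z := y) (by
    rw [inv_one, one_mul]; exact Ctx.E_left _ hs) (by rwa [inv_one, one_mul]) hy.symm
  obtain ⟨a', ha'⟩ := h.lift_uniq (x := 1) (y := C.kh k2' * s) (z := y') (by
    rw [inv_one, one_mul]; exact Ctx.E_left _ hs) (by rwa [inv_one, one_mul]) hy'.symm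
  have e1 : C.E (y⁻¹ * d1) := by
    have : y⁻¹ * d1 = C.kh a⁻¹ * ((C.kh k2 * s)⁻¹ * d1) := by rw [ha, Ctx.kh_inv]; group
    rw [this]; exact Ctx.E_left _ (key k2 hc)
  obtain ⟨b, hb⟩ := h.lift_uniq e1 exy hx.symm
  have : y'⁻¹ * x = C.kh a'⁻¹ * ((C.kh k2' * s)⁻¹ * d1) * C.kh b := by rw [ha', hb, Ctx.kh_inv]; group
  rw [this]
  exact Ctx.E_right _ (Ctx.E_left _ (key k2' hc'))

end ctx

variable {F : Type*} [Field F] {q : ℕ} [Fintype F]

/-! ### the general part of the inductive step -/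

section gen

variable (hF : Fintype.card F = q ^ 2) (n : ℕ) {H : Type*} [Group H]
    (α : SU (n + 3) F q →* H) (γ : SU 3 F q →* H)

/-- the data of the inductive step -/
structure StepHyp : Prop where
  ha : ∀ x : SU 2 F q, γ (emb hF 1 (by omega) x) = α (emb hF 0 (by omega) x)
  hc : ∀ (c : SU (n + 2) F q) (a : SU 2 F q),
      α (emb hF 1 (by omega) c) * γ (emb hF 0 (by omega) a) =
        γ (emb hF 0 (by omega) a) * α (emb hF 1 (by omega) c)

variable {hF n α γ} (S : StepHyp hF n α γ)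

/-- the context -/
abbrev stepCtx (hF : Fintype.card F = q ^ 2) (n : ℕ) {H : Type*} [Group H]
    (α : SU (n + 3) F q →* H) (γ : SU 3 F q →* H) :
    Ctx (SU (n + 4) F q) H (Pt (n + 4) F q) (SU (n + 3) F q) (SU 2 F q) :=
  octx hF (n + 1) α (γ.comp (emb hF 0 (by omega)))

omit α γ S in
theorem r1' (hF : Fintype.card F = q ^ 2) (n : ℕ) (t : SU 2 F q) : emb hF 1 (by omega : 1 + (n + 3) ≤ n + 4)
      (emb hF 0 (by omega : 0 + 2 ≤ n + 3) t) =
      emb hF 0 (by omega : 0 + 3 ≤ n + 4) (emb hF 1 (by omega : 1 + 2 ≤ 3) t) := by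
  rw [emb_emb, emb_emb]

omit α γ S in
theorem r2' (hF : Fintype.card F = q ^ 2) (n : ℕ) (a : SU 2 F q) : emb hF 0 (by omega : 0 + 2 ≤ n + 4) a =
      emb hF 0 (by omega : 0 + 3 ≤ n + 4) (emb hF 0 (by omega : 0 + 2 ≤ 3) a) := by
  rw [emb_emb]

include S

theorem StepHyp.hyp : (stepCtx hF n α γ).Hyp := by
  have r3 : ∀ (c : SU (n + 2) F q) (a : SU 2 F q),
      emb hF 1 (by omega : 1 + (n + 3) ≤ n + 4) (emb hF 1 (by omega : 1 + (n + 2) ≤ n + 3) c) *
        emb hF 0 (by omega : 0 + 2 ≤ n + 4) a =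
      emb hF 0 (by omega : 0 + 2 ≤ n + 4) a *
        emb hF 1 (by omega : 1 + (n + 3) ≤ n + 4)
          (emb hF 1 (by omega : 1 + (n + 2) ≤ n + 3) c) := by
    intro c a
    rw [emb_emb, emb_comm]
    right
    omega
  refine octx_hyp hF (n + 1) α _ ?_
  intro k a b ha e
  obtain ⟨t, c, hk, e3⟩ := decomp_of_map hF k a b ha e
  have hfix : ((emb hF 0 (by omega : 0 + 2 ≤ 3) b)⁻¹ * (emb hF 1 (by omega : 1 + 2 ≤ 3) t *
      emb hF 0 (by omega : 0 + 2 ≤ 3) a)) • e0 2 F q = e0 2 F q := by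
    rw [mul_smul, mul_smul, e3, inv_smul_smul]
  obtain ⟨d, hd⟩ := exists_emb_of_fix hF _ hfix
  have hd' : emb hF 1 (by omega : 1 + 2 ≤ 3) t * emb hF 0 (by omega : 0 + 2 ≤ 3) a =
      emb hF 0 (by omega : 0 + 2 ≤ 3) b * emb hF 1 (by omega : 1 + 2 ≤ 3) d := by
    rw [hd, mul_inv_cancel_left]
  refine ⟨emb hF 0 (by omega) d * emb hF 1 (by omega) c, ?_, ?_⟩
  · rw [hk, map_mul, map_mul, mul_assoc, r3, ← mul_assoc, ← mul_assoc, r1', r1', r2' hF n a, r2' hF n b,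
      ← map_mul, ← map_mul, hd']
  · rw [hk, map_mul, map_mul, MonoidHom.comp_apply, MonoidHom.comp_apply, mul_assoc, S.hc, ← mul_assoc, ← mul_assoc,
      ← S.ha, ← S.ha, ← map_mul, ← map_mul, hd']

theorem StepHyp.tri : ∀ u v w : Pt (n + 4) F q, orth u v → orth u w → orth v w →
      (stepCtx hF n α γ).Tri u v w := by
  have hyp := S.hyp
  have hα := S.ha
  have hB : ∀ b : SU 3 F q, orth (e0 (n + 3) F q)
      (emb hF 0 (by omega : 0 + 3 ≤ n + 4) b • e0 (n + 3) F q) →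
      (stepCtx hF n α γ).E (emb hF 0 (by omega : 0 + 3 ≤ n + 4) b, γ b) := by
    intro b hb
    have hb3 := adj_emb_three hF b (adj_of_orth hb)
    obtain ⟨k, a, hka⟩ := exists_of_adj hF (n := 0) _ hb3
    have hfix : ((emb hF 1 (by omega : 1 + 2 ≤ 3) k * emb hF 0 (by omega : 0 + 2 ≤ 3) a)⁻¹ * b) •
        e0 2 F q = e0 2 F q := by
      rw [mul_smul, inv_smul_eq_iff, mul_smul]
      exact hka.symm
    obtain ⟨l, hl⟩ := exists_emb_of_fix hF _ hfix
    have hbe : b = emb hF 1 (by omega : 1 + 2 ≤ 3) k * emb hF 0 (by omega : 0 + 2 ≤ 3) a *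
        emb hF 1 (by omega : 1 + 2 ≤ 3) l := by
      rw [hl, mul_inv_cancel_left]
    have hpos : emb hF 0 (by omega : 0 + 3 ≤ n + 4) b =
        emb hF 1 (by omega : 1 + (n + 3) ≤ n + 4) (emb hF 0 (by omega : 0 + 2 ≤ n + 3) k) *
          emb hF 0 (by omega : 0 + 2 ≤ n + 4) a *
          emb hF 1 (by omega : 1 + (n + 3) ≤ n + 4) (emb hF 0 (by omega : 0 + 2 ≤ n + 3) l) := by
      rw [r1', r1', r2', ← map_mul, ← map_mul, ← hbe]
    refine ⟨emb hF 0 (by omega) k, a, emb hF 0 (by omega) l, ?_, ?_⟩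
    · -- `a e0` is orthogonal to `e0`
      have h5 : emb hF 0 (by omega : 0 + 3 ≤ n + 4) b • e0 (n + 3) F q =
          emb hF 1 (by omega : 1 + (n + 3) ≤ n + 4) (emb hF 0 (by omega : 0 + 2 ≤ n + 3) k) •
            emb hF 0 (by omega : 0 + 2 ≤ n + 4) a • e0 (n + 3) F q := by
        rw [hpos, mul_smul, mul_smul, emb_one_e0]
      rw [h5] at hb
      have h6 := orth_smul (emb hF 1 (by omega : 1 + (n + 3) ≤ n + 4)
        (emb hF 0 (by omega : 0 + 2 ≤ n + 3) k))⁻¹ hb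
      rw [inv_smul_smul, ← map_inv, emb_one_e0] at h6
      exact h6
    · refine Prod.ext hpos ?_
      change γ b = α (emb hF 0 (by omega) k) * γ (emb hF 0 (by omega) a) * α (emb hF 0 (by omega) l)
      rw [← hα, ← hα, ← map_mul, ← map_mul, ← hbe]
  intro v x u hvx hvu hxu
  obtain ⟨g, x₁, x₂, x₃, h1, h2, h3⟩ := exists_frame hF v x u hvx (by
    have e1 : hermForm (n + 4) F q v.val u.val = 0 := hvu
    have e2 : hermForm (n + 4) F q x.val u.val = 0 := hxu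
    rw [e1, e2, mul_zero, mul_zero, add_zero]
    exact zero_ne_one)
  rw [← h1, ← h2, ← h3]
  apply hyp.tri_smul
  refine hyp.tri_of_hom (emb hF 0 (by omega : 0 + 3 ≤ n + 4)) γ hB x₁ x₂ x₃ ?_ ?_ ?_
  · have := orth_smul g⁻¹ hvx
    rw [← h1, ← h2, inv_smul_smul, inv_smul_smul] at this
    exact this
  · have := orth_smul g⁻¹ hvu
    rw [← h1, ← h3, inv_smul_smul, inv_smul_smul] at this
    exact this
  · have := orth_smul g⁻¹ hxu
    rw [← h2, ← h3, inv_smul_smul, inv_smul_smul] at this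
    exact this

/-- the inductive step, given the comparison of the lifts -/
theorem StepHyp.extend (hn : 1 ≤ n) (hsame : ∀ w u u' : Pt (n + 4) F q, orth (e0 (n + 3) F q) u → orth u w →
      orth (e0 (n + 3) F q) u' → orth u' w → Cover2.Same (stepCtx hF n α γ) w u u') :
    ∃ Φ : SU (n + 4) F q →* H, (∀ x : SU (n + 3) F q, Φ (emb hF 1 (by omega) x) = α x) ∧
      ∀ x : SU 2 F q, Φ (emb hF 0 (by omega) x) = γ (emb hF 0 (by omega) x) := by
  have hyp := S.hyp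
  have hα := S.ha
  obtain ⟨Φ, hΦ1, hΦ2⟩ := Cover2.exists_hom_of_same hyp S.tri
    (fun w => exists_nbr hF (n := n) (e0 (n + 3) F q) w)
    (fun w w' h => by
      obtain ⟨m, rfl⟩ : ∃ m, n = m + 1 := ⟨n - 1, by omega⟩
      exact exists_nbr_edge hF (n := m) (e0 (m + 1 + 3) F q) w w' h)
    (fun w u u' h1 h2 h3 h4 => hsame w u u' h1 h2 h3 h4)
  have hΦ1' : ∀ x : SU (n + 3) F q, Φ (emb hF 1 (by omega) x) = α x := hΦ1
  refine ⟨Φ, hΦ1', ?_⟩
  -- the equalizer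
  have e1 : ∀ t : SU 2 F q, Φ (emb hF 0 (by omega : 0 + 3 ≤ n + 4)
      (emb hF 1 (by omega : 1 + 2 ≤ 3) t)) = γ (emb hF 1 (by omega : 1 + 2 ≤ 3) t) := by
    intro t
    rw [← r1', hΦ1', hα]
  have e2 : Φ (emb hF 0 (by omega : 0 + 3 ≤ n + 4) (emb hF 0 (by omega : 0 + 2 ≤ 3) (wey hF))) =
      γ (emb hF 0 (by omega : 0 + 2 ≤ 3) (wey hF)) := by
    rw [← r2']
    exact hΦ2 (wey hF) (wey_orth hF (n := n + 2))
  intro a
  rw [r2']
  set β : SU 3 F q →* H := Φ.comp (emb hF 0 (by omega : 0 + 3 ≤ n + 4)) with hβ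
  change β (emb hF 0 (by omega : 0 + 2 ≤ 3) a) = _
  have e1' : ∀ t : SU 2 F q, β (emb hF 1 (by omega : 1 + 2 ≤ 3) t) =
      γ (emb hF 1 (by omega : 1 + 2 ≤ 3) t) := e1
  have e2' : β (emb hF 0 (by omega : 0 + 2 ≤ 3) (wey hF)) =
      γ (emb hF 0 (by omega : 0 + 2 ≤ 3) (wey hF)) := e2
  have h7 := congrArg β (cyc_conj hF a)
  have h8 := congrArg γ (cyc_conj hF a)
  simp only [map_mul] at h7 h8
  rw [e1', e1', e2', ← h8] at h7
  exact mul_left_cancel h7

end gen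

end Cfsg.Agent.H112
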