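import Cfsg.Agent.H434.Orth

/-!
# Orthonormal families and the special unitary group (helper112)
-/

set_option autoImplicit false

namespace Cfsg.Agent.H112

open Matrix Cfsg Cfsg.Agent.Phan Cfsg.Agent.H434 Cfsg.Agent.Phan.Cover
open Cfsg.Agent.LieClassical.HermBasic

variable {F : Type*} [Field F] {q : ℕ} [Fintype F]

theorem herm_lift0_lift0 (hF : Fintype.card F = q ^ 2) {n : ℕ} (g : SU (n + 1) F q) (x y : Pt n F q) :
    hermForm (n + 1) F q (lift0 hF g x).val (lift0 hF g y).val = hermForm n F q x.val y.val := by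
  rw [herm_lift0]
  have : (lift0 hF g y).val = mat g *ᵥ Fin.cons 0 y.val := rfl
  rw [this, Matrix.mulVec_mulVec, mat_inv_mul, Matrix.one_mulVec, tl_cons]

/-- orthonormal families extend -/
theorem exists_frames (hF : Fintype.card F = q ^ 2) (k : ℕ) : ∀ (m : ℕ) (hk : k < m) (f : Fin k → Pt m F q),
    (∀ i j, i ≠ j → orth (f i) (f j)) →
    ∃ g : SU m F q, ∀ i : Fin k, mat g *ᵥ Pi.single (⟨i, by omega⟩ : Fin m) 1 = (f i).val := by
  induction k with
  | zero => intro m _ f _; exact ⟨1, fun i => i.elim0⟩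
  | succ k ih =>
    intro m hk f ho
    obtain ⟨m, rfl⟩ : ∃ m', m = m' + 2 := ⟨m - 2, by omega⟩
    obtain ⟨g0, hg0⟩ := exists_su_smul hF (e0 (m + 1) F q) (f 0)
    have hx : ∀ i : Fin k, ∃ x : Pt (m + 1) F q, lift0 hF g0 x = f i.succ := by
      intro i
      apply exists_lift0
      rw [hg0]
      exact ho _ _ (Fin.succ_ne_zero i)
    choose x hx using hx
    obtain ⟨g', hg'⟩ := ih (m + 1) (by omega) x (by
      intro i j hij
      have := ho i.succ j.succ (fun h => hij (Fin.succ_injective _ h))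
      rw [orth, ← hx, ← hx, herm_lift0_lift0] at this
      exact this)
    refine ⟨g0 * emb hF 1 (by omega) g', ?_⟩
    intro i
    rw [mat_mul, ← Matrix.mulVec_mulVec, emb_one_mulVec]
    refine Fin.cases ?_ (fun i => ?_) i
    · have h1 : (Pi.single (⟨((0 : Fin (k + 1)) : ℕ), by omega⟩ : Fin (m + 2)) 1 : Fin (m + 2) → F) = Pi.single 0 1 := rfl
      rw [h1]
      have h2 : (fun j : Fin (m + 1) => (Pi.single 0 1 : Fin (m + 2) → F) j.succ) = 0 := by
        funext j
        rw [Pi.single_eq_of_ne (Fin.succ_ne_zero j)]; rfl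
      rw [h2, Matrix.mulVec_zero, Pi.single_eq_same, ← e0_val', ← smul_val, hg0]
    · have h1 : (⟨((i.succ : Fin (k + 1)) : ℕ), by omega⟩ : Fin (m + 2)) = (⟨i, by omega⟩ : Fin (m + 1)).succ := rfl
      rw [h1]
      have h2 : (fun j : Fin (m + 1) => (Pi.single (⟨i, by omega⟩ : Fin (m + 1)).succ 1 : Fin (m + 2) → F) j.succ) =
          Pi.single (⟨i, by omega⟩ : Fin (m + 1)) 1 := by
        funext j
        by_cases hj : j = ⟨i, by omega⟩
        · subst hj; rw [Pi.single_eq_same, Pi.single_eq_same]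
        · rw [Pi.single_eq_of_ne hj, Pi.single_eq_of_ne (fun h => hj (Fin.succ_injective _ h))]
      rw [h2, hg', Pi.single_eq_of_ne (Fin.succ_ne_zero _).symm]
      exact congrArg Pt.val (hx i)

end Cfsg.Agent.H112
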