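import Cfsg.Agent.H112.Glue2

/-!
# The induction for the gluing of `SU 4 (2)` with a symmetric group (helper112)
-/

set_option autoImplicit false

namespace Cfsg.Agent.H112

open Matrix Cfsg Cfsg.Agent.Phan Cfsg.Agent.H434 Cfsg.Agent.Phan.Cover
open Cfsg.Agent.LieClassical.HermBasic
open Equiv (Perm swap)

/-- an involution of degree six -/
def s6 : Perm (Fin 6) := swap 0 3 * swap 1 4 * swap 2 5

theorem s6_mul : s6 * s6 = 1 := by decide

theorem s6_sh : s6 ∘ (sh 3 (by omega : 3 + 3 ≤ 6) : Fin 3 → Fin 6) = sh 0 (by omega) := by decide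

theorem s6_sh' : ∀ i : Fin 3, s6 (sh 0 (by omega : 0 + 3 ≤ 6) i) = sh 3 (by omega) i := by decide

theorem dec_rot4 : (finRotate 4) ∘ (sh 0 (by omega : 0 + 2 ≤ 4) : Fin 2 → Fin 4) = sh 1 (by omega : 1 + 2 ≤ 4) := by decide

theorem dec_s6 : (swap (1 : Fin 6) 3) 0 = 0 ∧ (swap (0 : Fin 6) 1 * (swap 1 3)⁻¹ * s6 : Perm (Fin 6)) 0 = 0 := by decide

theorem hCi {n k : ℕ} (hkn : k + 4 ≤ n) {C : Perm (Fin n)}
    (hC : C ∘ (sh 0 (by omega : 0 + (k + 3) ≤ n)) = sh 1 (by omega : 1 + (k + 3) ≤ n)) (i : Fin n) (hi : (i : ℕ) < k + 3) :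
    (C i : ℕ) = i + 1 := by
  have h1 := congrFun hC ⟨i, hi⟩
  have h2 : i = sh 0 (by omega : 0 + (k + 3) ≤ n) ⟨i, hi⟩ := by
    apply Fin.ext; simp only [sh_val]; omega
  rw [Function.comp_apply, ← h2] at h1
  rw [h1]; simp only [sh_val]; omega

variable {F : Type*} [Field F] [Fintype F]

theorem emb_pm2 (hF : Fintype.card F = 2 ^ 2) {m n : ℕ} (k : ℕ) (h : k + m ≤ n) (σ : Perm (Fin m)) :
    emb hF k h (pm2 2 m (two_zero hF) σ) = pm2 2 n (two_zero hF) (ve (sh k h) (sh_injective _ _) σ) :=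
  ext_pmE hF (sh k h) (sh_injective _ _) σ _ _ _ (by funext i; exact ve_apply _ _ _ _)
    (fun x hx => ve_notMem _ _ _ hx)

theorem ve_sh_sh {l m n k k' : ℕ} (h : k + m ≤ n) (h' : k' + l ≤ m) (σ : Perm (Fin l)) :
    ve (sh k h) (sh_injective _ _) (ve (sh k' h') (sh_injective _ _) σ) =
      ve (sh (k + k') (by omega : (k + k') + l ≤ n)) (sh_injective _ _) σ := by
  rw [ve_comp]
  apply ve_congr
  funext i
  apply Fin.ext
  simp only [Function.comp_apply, sh_val]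
  omega

theorem pm2_smul_e0 (hF : Fintype.card F = 2 ^ 2) : pm2 2 (2 + 4) (two_zero hF) s6 • e0 (2 + 3) F 2 =
    pc (pc (pc (e0 2 F 2) hF) hF) hF := by
  apply Pt.ext'
  rw [smul_val, mat_pm2]
  funext x
  obtain ⟨y, rfl⟩ := s6.surjective x
  rw [inc_mulVec s6.injective]
  fin_cases y <;> rfl

section

variable {hF : Fintype.card F = 2 ^ 2} {n : ℕ} {hn : 5 ≤ n} {Q : Type*} [Group Q] {γ : SU 4 F 2 →* Q}
    {t : Perm (Fin n) →* Q} (G : Glue2 hF n hn γ t) {k : ℕ} (hkn : k + 4 ≤ n) {Φ : SU (k + 3) F 2 →* Q}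
    (E : PExt hF γ t (by omega) (by omega) Φ) {C : Perm (Fin n)}
    (hC : C ∘ (sh 0 (by omega : 0 + (k + 3) ≤ n)) = sh 1 (by omega : 1 + (k + 3) ≤ n))

include G E hC

theorem PExt.a3 (f : Fin 3 → Fin (k + 3)) (hf : Function.Injective f) (ρ : Perm (Fin n))
    (hρ : ∀ i : Fin 3, ((ρ ⟨i, by omega⟩ : Fin n) : ℕ) = f i + 1) (x : SU 3 F 2) :
    cjh (t C) Φ (ext hF f hf x) = t ρ * γ (emb hF 0 (by omega) x) * (t ρ)⁻¹ := by
  have h1 := E.ext3 G f hf (C⁻¹ * ρ) (fun i => by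
    have h2 : C⁻¹ (ρ ⟨i, by omega⟩) = ⟨f i, by omega⟩ := by
      rw [Equiv.Perm.inv_eq_iff_eq]
      apply Fin.ext
      rw [hρ i, hCi hkn hC _ (by exact (f i).2)]
    rw [Equiv.Perm.mul_apply, h2]) x
  rw [cjh_apply, h1, map_mul, map_inv]
  group

theorem PExt.a2 (f : Fin 2 → Fin (k + 3)) (hf : Function.Injective f) (ρ : Perm (Fin n))
    (hρ : ∀ i : Fin 2, ((ρ ⟨i, by omega⟩ : Fin n) : ℕ) = f i + 1) (x : SU 2 F 2) :
    cjh (t C) Φ (ext hF f hf x) = t ρ * γ (emb hF 0 (by omega) x) * (t ρ)⁻¹ := by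
  have h1 := E.ext2 G f hf (C⁻¹ * ρ) (fun i => by
    have h2 : C⁻¹ (ρ ⟨i, by omega⟩) = ⟨f i, by omega⟩ := by
      rw [Equiv.Perm.inv_eq_iff_eq]
      apply Fin.ext
      rw [hρ i, hCi hkn hC _ (by exact (f i).2)]
    rw [Equiv.Perm.mul_apply, h2]) x
  rw [cjh_apply, h1, map_mul, map_inv]
  group

omit G in
theorem PExt.ap (σ : Perm (Fin (k + 3))) : cjh (t C) Φ (pm2 2 (k + 3) (two_zero hF) σ) =
    t (ve (sh 1 (by omega : 1 + (k + 3) ≤ n)) (sh_injective _ _) σ) := by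
  rw [cjh_apply, E.p, ← map_inv, ← map_mul, ← map_mul]
  congr 1
  exact ve_conj _ _ C (fun i => congrFun hC i) σ

theorem PExt.stepHyp (hk : 1 ≤ k) : StepHyp hF k (cjh (t C) Φ) (γ.comp (emb hF 0 (by omega : 0 + 3 ≤ 4))) := by
  refine ⟨?_, ?_⟩
  · intro x
    have h1 : cjh (t C) Φ (emb hF 0 (by omega : 0 + 2 ≤ k + 3) x) = t C * γ (emb hF 0 (by omega) x) * (t C)⁻¹ := by
      rw [emb]
      exact E.a2 G hkn hC (sh 0 (by omega)) (sh_injective _ _) C (fun i => by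
        rw [hCi hkn hC _ (by have := i.2; simp only; omega)]
        simp [sh_val]) x
    rw [h1, MonoidHom.comp_apply, emb_emb]
    have h2 : emb hF (0 + 1) (by omega : 0 + 1 + 2 ≤ 4) x = pm2 2 4 (two_zero hF) (finRotate 4) *
        emb hF 0 (by omega) x * (pm2 2 4 (two_zero hF) (finRotate 4))⁻¹ := by
      have h3 := pm2_ext' hF (two_zero hF) (finRotate 4) (sh 0 (by omega : 0 + 2 ≤ 4)) (sh_injective _ _) x
      rw [emb, emb, h3]
      exact ext_congr hF _ _ dec_rot4.symm x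
    rw [h2, map_mul, map_mul, map_inv, ← G.b]
    apply G.wd2
    intro i hi
    apply Fin.ext
    rw [hCi hkn hC i (by omega)]
    have h4 : i = sh 0 (by omega : 0 + 4 ≤ n) (sh 0 (by omega : 0 + 2 ≤ 4) ⟨i, hi⟩) := by
      apply Fin.ext; simp only [sh_val]; omega
    conv_lhs => rw [h4]
    rw [ve_apply]
    have h5 := congrFun dec_rot4 ⟨i, hi⟩
    rw [Function.comp_apply] at h5
    rw [h5]
    simp only [sh_val]
    omega
  · intro c a
    rw [MonoidHom.comp_apply, emb_emb]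
    have h1 : ∀ c : SU (k + 2) F 2, c ∈ (Subgroup.centralizer {γ (emb hF (0 + 0) (by omega) a)}).comap
        ((cjh (t C) Φ).comp (emb hF 1 (by omega : 1 + (k + 2) ≤ k + 3))) := by
      obtain ⟨k', rfl⟩ : ∃ k', k = k' + 1 := ⟨k - 1, by omega⟩
      have h2 := gen_two hF k' ((Subgroup.centralizer {γ (emb hF (0 + 0) (by omega) a)}).comap
        ((cjh (t C) Φ).comp (emb hF 1 (by omega : 1 + (k' + 1 + 2) ≤ k' + 1 + 3)))) ?_ ?_
      · intro c; rw [h2]; trivial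
      · intro σ
        rw [Subgroup.mem_comap, Subgroup.mem_centralizer_singleton_iff, MonoidHom.comp_apply, emb_pm2, E.ap hkn hC,
          ve_sh_sh]
        refine (G.c2 _ ?_ a).eq
        intro i hi
        apply ve_notMem
        rw [notMem_sh_iff]
        left; omega
      · intro x
        rw [Subgroup.mem_comap, Subgroup.mem_centralizer_singleton_iff, MonoidHom.comp_apply, emb_emb, emb]
        -- the permutation
        obtain ⟨ρ, hρ⟩ := exists_perm_ext (sh 0 (by omega : 0 + 3 ≤ n)) (sh 2 (by omega : 2 + 3 ≤ n))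
          (sh_injective _ _) (sh_injective _ _)
        have hρi : ∀ i : Fin n, (i : ℕ) < 3 → (ρ i : ℕ) = i + 2 := by
          intro i hi
          have h3 := congrFun hρ ⟨i, hi⟩
          have h4 : i = sh 0 (by omega : 0 + 3 ≤ n) ⟨i, hi⟩ := by
            apply Fin.ext; simp only [sh_val]; omega
          rw [Function.comp_apply, ← h4] at h3
          rw [h3]; simp only [sh_val]; omega
        rw [E.a3 G hkn hC _ _ ρ (fun i => by
          rw [hρi _ i.2]
          simp only [sh_val]; omega) x]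
        have h5 := G.d ρ⁻¹ (fun i hi => by
          by_contra hc
          push Not at hc
          have h6 := hρi _ hc
          rw [pm_ais] at h6
          omega) x a
        have h7 := h5.map (MulAut.conj (t ρ)).toMonoidHom
        have h8 : (MulAut.conj (t ρ)).toMonoidHom (t ρ⁻¹ * γ (emb hF 0 (by omega) a) * (t ρ⁻¹)⁻¹) =
            γ (emb hF 0 (by omega) a) := by
          change t ρ * (t ρ⁻¹ * γ (emb hF 0 (by omega) a) * (t ρ⁻¹)⁻¹) * (t ρ)⁻¹ = _
          rw [map_inv]; group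
        rw [h8] at h7
        exact h7
    have h3 := h1 c
    rw [Subgroup.mem_comap, Subgroup.mem_centralizer_singleton_iff] at h3
    exact h3

end

section rect

variable {hF : Fintype.card F = 2 ^ 2} {n : ℕ} {hn : 5 ≤ n} {Q : Type*} [Group Q] {γ : SU 4 F 2 →* Q}
    {t : Perm (Fin n) →* Q} (G : Glue2 hF n hn γ t) (hkn : 2 + 4 ≤ n) {Φ : SU (2 + 3) F 2 →* Q}
    (E : PExt hF γ t (by omega) (by omega) Φ) {C : Perm (Fin n)}
    (hC : C ∘ (sh 0 (by omega : 0 + (2 + 3) ≤ n)) = sh 1 (by omega : 1 + (2 + 3) ≤ n))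

/-- the involution -/
noncomputable def r6 (hkn : 2 + 4 ≤ n) : Perm (Fin n) := ve (sh 0 (by omega : 0 + 6 ≤ n)) (sh_injective _ _) s6

theorem r6_apply (i : Fin n) (hi : (i : ℕ) < 3) : (r6 hkn i : ℕ) = i + 3 := by
  have h4 : i = sh 0 (by omega : 0 + 6 ≤ n) (sh 0 (by omega : 0 + 3 ≤ 6) ⟨i, hi⟩) := by
    apply Fin.ext; simp only [sh_val]; omega
  conv_lhs => rw [h4]
  rw [r6, ve_apply, s6_sh']
  simp only [sh_val]
  omega

theorem r6_mul : r6 hkn * r6 hkn = 1 := by rw [r6, ← map_mul, s6_mul, map_one]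

include G E hC

theorem PExt.rect : RectHyp hF (cjh (t C) Φ) (γ.comp (emb hF 0 (by omega : 0 + 3 ≤ 4))) := by
  have h2 : ∀ c : SU 3 F 2, cjh (t C) Φ (emb hF 2 (by omega : 2 + 3 ≤ 2 + 3) c) =
      t (r6 hkn) * γ (emb hF 0 (by omega) c) * (t (r6 hkn))⁻¹ := by
    intro c
    rw [emb]
    exact E.a3 G hkn hC _ _ (r6 hkn) (fun i => by
      rw [r6_apply hkn _ i.2]
      simp only [sh_val]; omega) c
  refine ⟨?_, ?_⟩
  · intro b c
    rw [h2]
    exact (G.e hkn (r6 hkn) (fun i hi => by rw [r6_apply hkn i hi]; omega) b c).eq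
  · refine ⟨(pm2 2 (2 + 4) (two_zero hF) s6, t (r6 hkn)), ?_, pm2_smul_e0 hF, ?_⟩
    · obtain ⟨κ, hκ⟩ := exists_ve (sh 1 (by omega : 1 + 5 ≤ 6)) (sh_injective _ _) (swap (1 : Fin 6) 3) (by
        intro x hx
        rw [notMem_sh_iff] at hx
        have : x = 0 := by apply Fin.ext; have := x.2; simp only [Fin.val_zero]; omega
        rw [this]; exact dec_s6.1)
      obtain ⟨l, hl⟩ := exists_ve (sh 1 (by omega : 1 + 5 ≤ 6)) (sh_injective _ _)
        (swap (0 : Fin 6) 1 * (swap 1 3)⁻¹ * s6) (by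
        intro x hx
        rw [notMem_sh_iff] at hx
        have : x = 0 := by apply Fin.ext; have := x.2; simp only [Fin.val_zero]; omega
        rw [this]; exact dec_s6.2)
      have hs6 : s6 = ve (sh 1 (by omega : 1 + 5 ≤ 6)) (sh_injective _ _) κ *
          ve (sh 0 (by omega : 0 + 2 ≤ 6)) (sh_injective _ _) (swap 0 1) *
            ve (sh 1 (by omega : 1 + 5 ≤ 6)) (sh_injective _ _) l := by
        have e : ve (sh 0 (by omega : 0 + 2 ≤ 6)) (sh_injective _ _) (swap 0 1) = swap (0 : Fin 6) 1 := by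
          rw [ve_swap]; rfl
        rw [hκ, hl, e]
        have h3 : swap (0 : Fin 6) 1 * swap 0 1 = 1 := Equiv.swap_mul_self _ _
        calc s6 = swap 1 3 * (1 : Perm (Fin 6)) * (swap 1 3)⁻¹ * s6 := by group
          _ = swap 1 3 * (swap (0 : Fin 6) 1 * swap 0 1) * (swap 1 3)⁻¹ * s6 := by rw [h3]
          _ = _ := by group
      refine ⟨pm2 2 5 (two_zero hF) κ, pm2 2 2 (two_zero hF) (swap 0 1), pm2 2 5 (two_zero hF) l, ?_, ?_⟩
      · change hermForm (2 + 4) F 2 (e0 (2 + 3) F 2).val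
          (emb hF 0 (by omega : 0 + 2 ≤ 2 + 4) (pm2 2 2 (two_zero hF) (swap 0 1)) • e0 (2 + 3) F 2).val = 0
        rw [herm_e0_left, emb_zero_e0 hF (n := 4), Fin.cons_zero, mat_pm2, inc_apply, if_neg (by decide),
          zero_pow two_ne_zero]
      · refine Prod.ext ?_ ?_
        · change pm2 2 6 (two_zero hF) s6 = emb hF 1 (by omega : 1 + 5 ≤ 6) (pm2 2 5 (two_zero hF) κ) *
            emb hF 0 (by omega : 0 + 2 ≤ 6) (pm2 2 2 (two_zero hF) (swap 0 1)) *
              emb hF 1 (by omega : 1 + 5 ≤ 6) (pm2 2 5 (two_zero hF) l)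
          rw [emb_pm2, emb_pm2, emb_pm2, ← map_mul, ← map_mul, ← hs6]
        · change t (r6 hkn) = cjh (t C) Φ (pm2 2 (2 + 3) (two_zero hF) κ) *
            γ (emb hF 0 (by omega : 0 + 3 ≤ 4) (emb hF 0 (by omega : 0 + 2 ≤ 3) (pm2 2 2 (two_zero hF) (swap 0 1)))) *
              cjh (t C) Φ (pm2 2 (2 + 3) (two_zero hF) l)
          rw [E.ap hkn hC, E.ap hkn hC, emb_emb, emb_pm2, ← G.b, ← map_mul, ← map_mul, r6]
          congr 1
          conv_lhs => rw [hs6]
          rw [map_mul, map_mul, ve_sh_sh, ve_sh_sh, ve_sh_sh, ve_sh_sh]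
    · intro b
      refine Prod.ext ?_ ?_
      · change (pm2 2 6 (two_zero hF) s6)⁻¹ * emb hF 0 (by omega : 0 + 3 ≤ 6) b * pm2 2 6 (two_zero hF) s6 =
          emb hF 3 (by omega : 3 + 3 ≤ 6) b
        have h3 := pm2_ext' hF (two_zero hF) s6 (sh 3 (by omega : 3 + 3 ≤ 6)) (sh_injective _ _) b
        have h4 : ext hF (s6 ∘ (sh 3 (by omega : 3 + 3 ≤ 6))) (s6.injective.comp (sh_injective _ _)) b =
            emb hF 0 (by omega : 0 + 3 ≤ 6) b := ext_congr hF _ _ s6_sh b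
        rw [h4] at h3
        rw [← h3, emb]
        group
      · change (t (r6 hkn))⁻¹ * γ (emb hF 0 (by omega : 0 + 3 ≤ 4) b) * t (r6 hkn) =
          cjh (t C) Φ (emb hF 2 (by omega : 2 + 3 ≤ 2 + 3) b)
        have h3 : t (r6 hkn) * t (r6 hkn) = 1 := by rw [← map_mul, r6_mul, map_one]
        have h4 : (t (r6 hkn))⁻¹ = t (r6 hkn) := inv_eq_of_mul_eq_one_right h3
        rw [h2, h4]

end rect

end Cfsg.Agent.H112
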