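import Cfsg.Agent.H112.GlueRel
import Cfsg.Agent.H111.Pres

/-!
# Finitely many gluing relators (helper112)
-/

set_option autoImplicit false

namespace Cfsg.Agent.H112

open Matrix Cfsg Cfsg.Agent.Phan
open Cfsg.Agent.LieClassical.HermBasic
open Equiv (Perm swap)
open Equiv.Perm (sign)

variable {m : ℕ}

/-- the 3-cycle of degree 3 -/
def cyc3 : alternatingGroup (Fin 3) := ⟨finRotate 3, Equiv.Perm.mem_alternatingGroup.2 dec_rot.1⟩

/-- extension of an even permutation to an even permutation -/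
noncomputable def va {k n : ℕ} (e : Fin k → Fin n) (he : Function.Injective e) :
    alternatingGroup (Fin k) →* alternatingGroup (Fin n) where
  toFun σ := ⟨ve e he σ.1, by
    rw [Equiv.Perm.mem_alternatingGroup, sign_ve]; exact Equiv.Perm.mem_alternatingGroup.1 σ.2⟩
  map_one' := Subtype.ext (map_one _)
  map_mul' σ τ := Subtype.ext (map_mul _ _ _)

theorem va_val {k n : ℕ} (e : Fin k → Fin n) (he : Function.Injective e) (σ : alternatingGroup (Fin k)) :
    (va e he σ).1 = ve e he σ.1 := rfl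

theorem dec_four : sign (swap (0 : Fin 4) 2 * swap 1 3) = 1 ∧
    (swap (0 : Fin 4) 2 * swap 1 3 : Perm (Fin 4)) ∘ (sh 0 (by omega : 0 + 2 ≤ 4) : Fin 2 → Fin 4) =
      sh 2 (by omega : 2 + 2 ≤ 4) ∧ (swap (0 : Fin 4) 2 * swap 1 3 : Perm (Fin 4)) *
      (swap (0 : Fin 4) 2 * swap 1 3) = 1 := by decide

/-- the double transposition of degree four -/
def dd4 : alternatingGroup (Fin 4) := ⟨swap 0 2 * swap 1 3, Equiv.Perm.mem_alternatingGroup.2 dec_four.1⟩

theorem dd4_mul : dd4 * dd4 = 1 := Subtype.ext dec_four.2.2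

/-- the double transposition -/
noncomputable def dN (m : ℕ) (hm : 2 ≤ m) : alternatingGroup (Fin (m + 2)) :=
  va (sh 0 (by omega : 0 + 4 ≤ m + 2)) (sh_injective 0 (by omega)) dd4

theorem dN_mul (m : ℕ) (hm : 2 ≤ m) : dN m hm * dN m hm = 1 := by
  rw [dN, ← map_mul, dd4_mul, map_one]

theorem dec_split : ∀ k : Fin 4, (∃ i : Fin 2, k = sh 0 (by omega : 0 + 2 ≤ 4) i) ∨
      ∃ i : Fin 2, k = sh 2 (by omega : 2 + 2 ≤ 4) i := by decide

/-- a permutation fixing `{0, 1}` and carrying `(2, 3)` to `ρ (0, 1)` -/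
theorem exists_slide (hm : 2 ≤ m) (ρ : Perm (Fin (m + 2)))
    (hρ : ∀ i j : Fin 2, ρ (sh 0 (by omega : 0 + 2 ≤ m + 2) i) ≠ sh 0 (by omega : 0 + 2 ≤ m + 2) j) :
    ∃ s : Perm (Fin (m + 2)), sign s = 1 ∧ ∃ τ : Perm (Fin 2),
      s ∘ (sh 0 (by omega) : Fin 2 → Fin (m + 2)) = sh 0 (by omega) ∘ τ ∧
      ∀ i : Fin 2, s (sh 2 (by omega : 2 + 2 ≤ m + 2) i) = ρ (sh 0 (by omega : 0 + 2 ≤ m + 2) i) := by
  let f : Fin 4 → Fin (m + 2) := fun k => if h : (k : ℕ) < 2 then ⟨k, by omega⟩ else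
    ρ (sh 0 (by omega : 0 + 2 ≤ m + 2) ⟨(k : ℕ) - 2, by omega⟩)
  have f1 : ∀ i : Fin 2, f (sh 0 (by omega : 0 + 2 ≤ 4) i) = sh 0 (by omega : 0 + 2 ≤ m + 2) i := by
    intro i
    apply Fin.ext
    have : ((sh 0 (by omega : 0 + 2 ≤ 4) i : Fin 4) : ℕ) < 2 := by rw [sh_val]; omega
    simp only [f]
    rw [dif_pos this]
    simp only [sh_val]
  have f2 : ∀ i : Fin 2, f (sh 2 (by omega : 2 + 2 ≤ 4) i) = ρ (sh 0 (by omega : 0 + 2 ≤ m + 2) i) := by
    intro i
    have : ¬ ((sh 2 (by omega : 2 + 2 ≤ 4) i : Fin 4) : ℕ) < 2 := by rw [sh_val]; omega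
    simp only [f]
    rw [dif_neg this]
    congr 2
    apply Fin.ext
    simp only [sh_val]
    omega
  have hf : Function.Injective f := by
    intro a b hab
    rcases dec_split a with ⟨i, rfl⟩ | ⟨i, rfl⟩ <;> rcases dec_split b with ⟨j, rfl⟩ | ⟨j, rfl⟩
    · rw [f1, f1] at hab
      rw [sh_injective 0 (by omega : 0 + 2 ≤ m + 2) hab]
    · rw [f1, f2] at hab
      exact absurd hab.symm (hρ j i)
    · rw [f1, f2] at hab
      exact absurd hab (hρ i j)
    · rw [f2, f2] at hab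
      rw [sh_injective 0 (by omega : 0 + 2 ≤ m + 2) (ρ.injective hab)]
  obtain ⟨s, hs⟩ := exists_perm_ext (sh 0 (by omega : 0 + 4 ≤ m + 2)) f (sh_injective _ _) hf
  have r1 : ∀ i : Fin 2, s (sh 0 (by omega : 0 + 2 ≤ m + 2) i) = sh 0 (by omega : 0 + 2 ≤ m + 2) i := by
    intro i
    have := congrFun hs (sh 0 (by omega : 0 + 2 ≤ 4) i)
    rw [Function.comp_apply, f1] at this
    refine Eq.trans (congrArg s ?_) this
    apply Fin.ext; simp only [sh_val]; omega
  have r2 : ∀ i : Fin 2, s (sh 2 (by omega : 2 + 2 ≤ m + 2) i) = ρ (sh 0 (by omega : 0 + 2 ≤ m + 2) i) := by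
    intro i
    have := congrFun hs (sh 2 (by omega : 2 + 2 ≤ 4) i)
    rw [Function.comp_apply, f2] at this
    refine Eq.trans (congrArg s ?_) this
    apply Fin.ext; simp only [sh_val]; omega
  rcases Int.units_eq_one_or (sign s) with h | h
  · exact ⟨s, h, 1, by funext i; exact r1 i, r2⟩
  · have hne : (sh 0 (by omega : 0 + 2 ≤ m + 2) 0 : Fin (m + 2)) ≠ sh 0 (by omega : 0 + 2 ≤ m + 2) 1 := fun h =>
      absurd (sh_injective 0 (by omega : 0 + 2 ≤ m + 2) h) (by decide)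
    refine ⟨s * swap (sh 0 (by omega : 0 + 2 ≤ m + 2) 0) (sh 0 (by omega : 0 + 2 ≤ m + 2) 1), ?_, swap 0 1, ?_, ?_⟩
    · rw [map_mul, h, Equiv.Perm.sign_swap hne]; rfl
    · funext i
      simp only [Function.comp_apply, Equiv.Perm.mul_apply]
      fin_cases i
      · change s (swap _ _ (sh 0 (by omega) (0 : Fin 2))) = sh 0 (by omega) (swap (0 : Fin 2) 1 0)
        rw [Equiv.swap_apply_left, Equiv.swap_apply_left]; exact r1 1
      · change s (swap _ _ (sh 0 (by omega) (1 : Fin 2))) = sh 0 (by omega) (swap (0 : Fin 2) 1 1)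
        rw [Equiv.swap_apply_right, Equiv.swap_apply_right]; exact r1 0
    · intro i
      rw [Equiv.Perm.mul_apply, Equiv.swap_apply_of_ne_of_ne]
      · exact r2 i
      · intro h1
        have := congrArg Fin.val h1
        simp only [sh_val] at this
        simp at this
      · intro h1
        have := congrArg Fin.val h1
        simp only [sh_val] at this
        simp at this
        omega

variable {F : Type*} [Field F] {q : ℕ} [Fintype F]

/-- the automorphism of `SU n` given by a permutation of the coordinates -/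
def pe (hF : Fintype.card F = q ^ 2) {n : ℕ} (τ : Perm (Fin n)) : SU n F q →* SU n F q := ext hF τ τ.injective

theorem pe_def (hF : Fintype.card F = q ^ 2) {n : ℕ} (τ : Perm (Fin n)) (x : SU n F q) :
    ext hF τ τ.injective x = pe hF τ x := rfl

theorem pe_one (hF : Fintype.card F = q ^ 2) {n : ℕ} (x : SU n F q) : pe hF (1 : Perm (Fin n)) x = x := ext_id hF x

theorem pe_mul (hF : Fintype.card F = q ^ 2) {n : ℕ} (σ τ : Perm (Fin n)) (x : SU n F q) :
    pe hF (σ * τ) x = pe hF σ (pe hF τ x) := by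
  rw [pe, pe, pe, ext_comp]
  rfl

/-- conjugate of a homomorphism -/
def cjh {G Q : Type*} [Group G] [Group Q] (a : Q) (f : G →* Q) : G →* Q := (MulAut.conj a).toMonoidHom.comp f

theorem cjh_apply {G Q : Type*} [Group G] [Group Q] (a : Q) (f : G →* Q) (x : G) : cjh a f x = a * f x * a⁻¹ := rfl

/-- finitely many conditions -/
structure GlueFin (hF : Fintype.card F = q ^ 2) (hm : 2 ≤ m) (x : Fin 2 → SU 2 F q) (σ : Fin 2 → Perm (Fin m))
    {Q : Type*} [Group Q] (γ : SU 3 F q →* Q) (t : alternatingGroup (Fin (m + 2)) →* Q) : Prop where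
  c : t (va (sh 0 (by omega)) (sh_injective 0 (by omega)) cyc3) = γ (pm F q 3 cyc3)
  s : ∀ i j : Fin 2, t (nu m (σ i)) * γ (emb hF 0 (by omega) (x j)) * (t (nu m (σ i)))⁻¹ =
    γ (emb hF 0 (by omega) (pe hF (zeta 0 1 (sign (σ i))) (x j)))
  d : ∀ i j : Fin 2, i ≤ j → Commute (γ (emb hF 0 (by omega) (x i)))
    (t (va (sh 0 (by omega)) (sh_injective 0 (by omega)) dd4) * γ (emb hF 0 (by omega) (x j)) *
      (t (va (sh 0 (by omega)) (sh_injective 0 (by omega)) dd4))⁻¹)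

theorem closure_range_two {G : Type*} [Group G] {x : Fin 2 → G} (hx : Subgroup.closure (Set.range x) = ⊤)
    {M : Subgroup G} (h : ∀ i, x i ∈ M) (y : G) : y ∈ M := by
  have : Subgroup.closure (Set.range x) ≤ M := by
    rw [Subgroup.closure_le]; rintro _ ⟨i, rfl⟩; exact h i
  rw [hx] at this
  exact this (Subgroup.mem_top y)

theorem hom_eq_two {G H : Type*} [Group G] [Group H] {x : Fin 2 → G} (hx : Subgroup.closure (Set.range x) = ⊤)
    {f g : G →* H} (h : ∀ i, f (x i) = g (x i)) (y : G) : f y = g y :=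
  closure_range_two hx (M := f.eqLocus g) h y

theorem commute_two {G H : Type*} [Group G] [Group H] {x : Fin 2 → G} (hx : Subgroup.closure (Set.range x) = ⊤)
    {f : G →* H} {z : H} (h : ∀ i, Commute (f (x i)) z) (y : G) : Commute (f y) z := by
  have := closure_range_two hx (M := (Subgroup.centralizer {z}).comap f) (fun i => by
    rw [Subgroup.mem_comap, Subgroup.mem_centralizer_singleton_iff]
    exact (h i).eq) y
  rw [Subgroup.mem_comap, Subgroup.mem_centralizer_singleton_iff] at this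
  exact this

section

variable {hF : Fintype.card F = q ^ 2} {hm : 2 ≤ m} {x : Fin 2 → SU 2 F q}
    {σ : Fin 2 → Perm (Fin m)} {Q : Type*} [Group Q] {γ : SU 3 F q →* Q} {t : alternatingGroup (Fin (m + 2)) →* Q}

theorem GlueFin.hc (G : GlueFin hF hm x σ γ t) (s : alternatingGroup (Fin (m + 2))) (τ : alternatingGroup (Fin 3))
    (h1 : s.1 ∘ (sh 0 (by omega) : Fin 3 → Fin (m + 2)) = sh 0 (by omega) ∘ τ.1)
    (h2 : ∀ x, x ∉ Set.range (sh 0 (by omega) : Fin 3 → Fin (m + 2)) → s.1 x = x) : t s = γ (pm F q 3 τ) := by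
  obtain ⟨k, hk⟩ := dec_cyc τ.1 (Equiv.Perm.mem_alternatingGroup.1 τ.2)
  have e1 : τ = cyc3 ^ (k : ℕ) := Subtype.ext hk
  have e2 : s = va (sh 0 (by omega)) (sh_injective 0 (by omega)) τ := Subtype.ext (eq_ve h1 h2)
  rw [e2, e1, map_pow, map_pow, G.c, map_pow, map_pow]

theorem glue_key (hx : Subgroup.closure (Set.range x) = ⊤) (ρ : Perm (Fin m)) (τ : Perm (Fin 2))
    (hρ : ∀ j, t (nu m ρ) * γ (emb hF 0 (by omega) (x j)) * (t (nu m ρ))⁻¹ =
        γ (emb hF 0 (by omega) (pe hF τ (x j))))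
    (y : SU 2 F q) : t (nu m ρ) * γ (emb hF 0 (by omega) y) * (t (nu m ρ))⁻¹ =
        γ (emb hF 0 (by omega) (pe hF τ y)) := by
  have h1 := hom_eq_two hx (f := cjh (t (nu m ρ)) (γ.comp (emb hF 0 (by omega))))
    (g := γ.comp ((emb hF 0 (by omega)).comp (pe hF τ))) (fun j => by
      rw [cjh_apply]; exact hρ j) y
  rw [cjh_apply] at h1
  exact h1

theorem GlueFin.hs0 (G : GlueFin hF hm x σ γ t) (hx : Subgroup.closure (Set.range x) = ⊤)
    (hσ : Subgroup.closure (Set.range σ) = ⊤) (ρ : Perm (Fin m)) :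
    ∀ y : SU 2 F q, t (nu m ρ) * γ (emb hF 0 (by omega) y) * (t (nu m ρ))⁻¹ =
      γ (emb hF 0 (by omega) (pe hF (zeta 0 1 (sign ρ)) y)) := by
  have hρ : ρ ∈ Subgroup.closure (Set.range σ) := by rw [hσ]; trivial
  induction hρ using Subgroup.closure_induction with
  | mem ρ hρ =>
    obtain ⟨i, rfl⟩ := hρ
    exact glue_key hx _ _ (fun j => G.s i j)
  | one =>
    intro y
    rw [map_one, map_one, one_mul, inv_one, mul_one, map_one, map_one, pe_one]
  | mul a b _ _ ha hb =>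
    intro y
    have h2 : t (nu m (a * b)) * γ (emb hF 0 (by omega) y) * (t (nu m (a * b)))⁻¹ =
        t (nu m a) * (t (nu m b) * γ (emb hF 0 (by omega) y) * (t (nu m b))⁻¹) * (t (nu m a))⁻¹ := by
      rw [map_mul, map_mul]; group
    rw [h2, hb y, ha, ← pe_mul, ← map_mul, ← map_mul]
  | inv a _ ha =>
    intro y
    have h1 := ha (pe hF (zeta 0 1 (sign a⁻¹)) y)
    rw [← pe_mul, ← map_mul, ← map_mul, mul_inv_cancel, map_one, map_one, pe_one] at h1
    rw [← h1, map_inv, map_inv]; group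

theorem GlueFin.hs (G : GlueFin hF hm x σ γ t) (hx : Subgroup.closure (Set.range x) = ⊤)
    (hσ : Subgroup.closure (Set.range σ) = ⊤) (s : alternatingGroup (Fin (m + 2))) (τ : Perm (Fin 2))
    (h : s.1 ∘ (sh 0 (by omega) : Fin 2 → Fin (m + 2)) = sh 0 (by omega) ∘ τ) (y : SU 2 F q) :
    t s * γ (emb hF 0 (by omega) y) * (t s)⁻¹ = γ (emb hF 0 (by omega) (pe hF τ y)) := by
  obtain ⟨ρ, h1, h2⟩ := nu_surj s τ h
  have := G.hs0 hx hσ ρ y
  rw [h1, h2] at this
  exact this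

theorem GlueFin.hd2 (G : GlueFin hF hm x σ γ t) (hx : Subgroup.closure (Set.range x) = ⊤) (y z : SU 2 F q) :
    Commute (γ (emb hF 0 (by omega) y)) (t (dN m hm) * γ (emb hF 0 (by omega) z) * (t (dN m hm))⁻¹) := by
  have hdd : t (dN m hm) * t (dN m hm) = 1 := by rw [← map_mul, dN_mul, map_one]
  have hdi : (t (dN m hm))⁻¹ = t (dN m hm) := inv_eq_of_mul_eq_one_right hdd
  have hd1 : ∀ i j : Fin 2, Commute (γ (emb hF 0 (by omega) (x i)))
      (t (dN m hm) * γ (emb hF 0 (by omega) (x j)) * (t (dN m hm))⁻¹) := by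
    intro i j
    rcases le_total i j with h | h
    · exact G.d i j h
    · have h1 : Commute (γ (emb hF 0 (by omega) (x j)))
        (t (dN m hm) * γ (emb hF 0 (by omega) (x i)) * (t (dN m hm))⁻¹) := G.d j i h
      generalize γ (emb hF 0 (by omega : 0 + 2 ≤ 3) (x j)) = u at h1 ⊢
      generalize γ (emb hF 0 (by omega : 0 + 2 ≤ 3) (x i)) = v at h1 ⊢
      generalize t (dN m hm) = w at hdd hdi h1 ⊢
      have e : u * (w * v * w⁻¹) = w * v * w⁻¹ * u := h1
      change v * (w * u * w⁻¹) = w * u * w⁻¹ * v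
      rw [hdi] at e ⊢
      calc v * (w * u * w) = (w * w) * v * w * u * w := by rw [hdd]; group
        _ = w * ((w * v * w) * u) * w := by group
        _ = w * (u * (w * v * w)) * w := by rw [e]
        _ = w * u * w * v * (w * w) := by group
        _ = _ := by rw [hdd, mul_one]
  -- for fixed generator `x i`, all `z`
  have k1 : ∀ i, ∀ z : SU 2 F q, Commute (γ (emb hF 0 (by omega) (x i)))
      (t (dN m hm) * γ (emb hF 0 (by omega) z) * (t (dN m hm))⁻¹) := by
    intro i z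
    have := commute_two hx (f := cjh (t (dN m hm)) (γ.comp (emb hF 0 (by omega)))) (z := γ (emb hF 0 (by omega) (x i)))
      (fun j => by rw [cjh_apply]; exact (hd1 i j).symm) z
    rw [cjh_apply] at this
    exact this.symm
  exact commute_two hx (f := γ.comp (emb hF 0 (by omega))) (fun i => k1 i z) y

theorem GlueFin.hyp (G : GlueFin hF hm x σ γ t) (hx : Subgroup.closure (Set.range x) = ⊤)
    (hσ : Subgroup.closure (Set.range σ) = ⊤) : GlueHyp hF (m + 2) (by omega) γ t := by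
  refine ⟨G.hc, G.hs hx hσ, ?_⟩
  intro ρ hρ y z
  obtain ⟨s, hs1, τ, hs2, hs3⟩ := exists_slide hm ρ.1 hρ
  let s' : alternatingGroup (Fin (m + 2)) := ⟨s, Equiv.Perm.mem_alternatingGroup.2 hs1⟩
  -- `t ρ γ(z) t ρ⁻¹ = t (s d) γ(z) t (s d)⁻¹`
  have hdsh : ∀ i : Fin 2, (dN m hm).1 (sh 0 (by omega : 0 + 2 ≤ m + 2) i) = sh 2 (by omega : 2 + 2 ≤ m + 2) i := by
    intro i
    have h1 : (sh 0 (by omega : 0 + 2 ≤ m + 2) i : Fin (m + 2)) = sh 0 (by omega : 0 + 4 ≤ m + 2)
        (sh 0 (by omega : 0 + 2 ≤ 4) i) := by apply Fin.ext; simp only [sh_val]; omega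
    rw [h1, dN, va_val, ve_apply]
    have h2 := congrFun dec_four.2.1 i
    simp only [Function.comp_apply] at h2
    change sh 0 (by omega : 0 + 4 ≤ m + 2) ((swap (0 : Fin 4) 2 * swap 1 3 : Perm (Fin 4)) _) = _
    rw [h2]
    apply Fin.ext; simp only [sh_val]; omega
  have e1 : t ρ * γ (emb hF 0 (by omega) z) * (t ρ)⁻¹ =
      t s' * (t (dN m hm) * γ (emb hF 0 (by omega) z) * (t (dN m hm))⁻¹) * (t s')⁻¹ := by
    have h1 := G.hs hx hσ ((s' * dN m hm)⁻¹ * ρ) 1 (by
      funext i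
      simp only [Function.comp_apply, Subgroup.coe_mul, InvMemClass.coe_inv, Equiv.Perm.mul_apply,
        Equiv.Perm.one_apply]
      rw [Equiv.Perm.inv_eq_iff_eq, Equiv.Perm.mul_apply, hdsh]
      exact (hs3 i).symm) z
    rw [pe_one, map_mul, map_inv, map_mul] at h1
    have h3 : t ρ * γ (emb hF 0 (by omega) z) * (t ρ)⁻¹ = (t s' * t (dN m hm)) *
        ((t s' * t (dN m hm))⁻¹ * t ρ * γ (emb hF 0 (by omega) z) * ((t s' * t (dN m hm))⁻¹ * t ρ)⁻¹) *
          (t s' * t (dN m hm))⁻¹ := by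
      group
    rw [h3, h1]; group
  have e2 : γ (emb hF 0 (by omega) y) = t s' * γ (emb hF 0 (by omega) (pe hF τ⁻¹ y)) * (t s')⁻¹ := by
    have h1 := G.hs hx hσ s' τ hs2 (pe hF τ⁻¹ y)
    rw [← pe_mul, mul_inv_cancel, pe_one] at h1
    exact h1.symm
  rw [e1, e2]
  have h5 := (G.hd2 hx (pe hF τ⁻¹ y) z).map (MulAut.conj (t s')).toMonoidHom
  exact h5

end

end Cfsg.Agent.H112
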