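import Cfsg.Agent.H112.GlueSys

/-!
# The eight relators gluing `SU₃` and an alternating group (helper112)
-/

set_option autoImplicit false

namespace Cfsg.Agent.H112

open Matrix Cfsg Cfsg.Agent.Phan
open Cfsg.Agent.LieClassical.HermBasic
open Equiv (Perm swap)
open Equiv.Perm (sign)

section Perms

variable {m n : ℕ}

/-- extension of permutations along an injection -/
noncomputable def ve (e : Fin m → Fin n) (he : Function.Injective e) : Perm (Fin m) →* Perm (Fin n) :=
  Equiv.Perm.viaEmbeddingHom ⟨e, he⟩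

theorem ve_apply (e : Fin m → Fin n) (he : Function.Injective e) (σ : Perm (Fin m)) (x : Fin m) :
    ve e he σ (e x) = e (σ x) := Equiv.Perm.viaEmbedding_apply σ ⟨e, he⟩ x

theorem ve_notMem (e : Fin m → Fin n) (he : Function.Injective e) (σ : Perm (Fin m)) {x : Fin n}
    (hx : x ∉ Set.range e) : ve e he σ x = x := Equiv.Perm.viaEmbedding_apply_of_notMem σ ⟨e, he⟩ x hx

theorem sign_ve (e : Fin m → Fin n) (he : Function.Injective e) (σ : Perm (Fin m)) : sign (ve e he σ) = sign σ := by
  have : ve e he σ = σ.viaFintypeEmbedding ⟨e, he⟩ := by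
    ext x
    by_cases hx : x ∈ Set.range e
    · obtain ⟨y, rfl⟩ := hx
      have h1 := Equiv.Perm.viaFintypeEmbedding_apply_image σ ⟨e, he⟩ y
      rw [ve_apply]
      exact congrArg Fin.val h1.symm
    · have h1 := Equiv.Perm.viaFintypeEmbedding_apply_notMem_range σ ⟨e, he⟩ hx
      rw [ve_notMem e he σ hx, h1]
  rw [this, Equiv.Perm.viaFintypeEmbedding_sign]

/-- a permutation is determined by its restriction and being trivial outside -/
theorem eq_ve {e : Fin m → Fin n} {he : Function.Injective e} {σ : Perm (Fin m)} {s : Perm (Fin n)}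
    (h1 : s ∘ e = e ∘ σ) (h2 : ∀ x, x ∉ Set.range e → s x = x) : s = ve e he σ := by
  ext x
  by_cases hx : x ∈ Set.range e
  · obtain ⟨y, rfl⟩ := hx
    rw [ve_apply]
    exact congrArg Fin.val (congrFun h1 y)
  · rw [ve_notMem e he σ hx, h2 x hx]

/-- a sign dependent transposition -/
def zeta {α : Type*} [DecidableEq α] (x y : α) : ℤˣ →* Perm α where
  toFun u := if u = 1 then 1 else swap x y
  map_one' := by simp
  map_mul' := by
    intro u v
    rcases Int.units_eq_one_or u with rfl | rfl <;> rcases Int.units_eq_one_or v with rfl | rfl <;> simp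

theorem zeta_one {α : Type*} [DecidableEq α] (x y : α) : zeta x y 1 = 1 := map_one _

theorem zeta_neg {α : Type*} [DecidableEq α] (x y : α) : zeta x y (-1) = swap x y := by
  simp [zeta]

theorem sign_zeta {α : Type*} [DecidableEq α] [Fintype α] {x y : α} (h : x ≠ y) (u : ℤˣ) : sign (zeta x y u) = u := by
  rcases Int.units_eq_one_or u with rfl | rfl
  · simp
  · rw [zeta_neg, Equiv.Perm.sign_swap h]

/-- `Perm (Fin m)` as the stabiliser of `{0, 1}` in the alternating group of degree `m + 2` -/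
noncomputable def nu (m : ℕ) : Perm (Fin m) →* alternatingGroup (Fin (m + 2)) where
  toFun σ := ⟨ve (sh 2 (by omega)) (sh_injective 2 (by omega : 2 + m ≤ m + 2)) σ * zeta 0 1 (sign σ), by
    rw [Equiv.Perm.mem_alternatingGroup, map_mul, sign_ve, sign_zeta (by simp)]
    rcases Int.units_eq_one_or (sign σ) with h | h <;> rw [h] <;> rfl⟩
  map_one' := by
    apply Subtype.ext
    simp
  map_mul' := by
    intro σ τ
    apply Subtype.ext
    change ve (sh 2 (by omega)) (sh_injective 2 (by omega : 2 + m ≤ m + 2)) (σ * τ) * zeta 0 1 (sign (σ * τ)) =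
      (ve (sh 2 (by omega)) (sh_injective 2 (by omega : 2 + m ≤ m + 2)) σ * zeta 0 1 (sign σ)) *
        (ve (sh 2 (by omega)) (sh_injective 2 (by omega : 2 + m ≤ m + 2)) τ * zeta 0 1 (sign τ))
    have hc : zeta (0 : Fin (m + 2)) 1 (sign σ) * ve (sh 2 (by omega)) (sh_injective 2 (by omega : 2 + m ≤ m + 2)) τ =
        ve (sh 2 (by omega)) (sh_injective 2 (by omega : 2 + m ≤ m + 2)) τ * zeta (0 : Fin (m + 2)) 1 (sign σ) := by
      rcases Int.units_eq_one_or (sign σ) with h | h
      · rw [h, zeta_one]; simp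
      · rw [h, zeta_neg]
        have h0 : ∀ y : Fin (m + 2), (y : ℕ) < 2 → y ∉ Set.range (sh 2 (by omega : 2 + m ≤ m + 2)) := by
          rintro y hy ⟨z, rfl⟩
          rw [sh_val] at hy; omega
        have h1 : ∀ y : Fin (m + 2), (y : ℕ) < 2 →
            ve (sh 2 (by omega)) (sh_injective 2 (by omega : 2 + m ≤ m + 2)) τ y = y :=
          fun y hy => ve_notMem _ _ _ (h0 y hy)
        have h2 : ∀ (f : Perm (Fin (m + 2))), f 0 = 0 → f 1 = 1 → swap 0 1 * f = f * swap 0 1 := by
          intro f e0 e1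
          rw [Equiv.mul_swap_eq_swap_mul, e0, e1]
        exact h2 _ (h1 0 (by simp)) (h1 1 (by simp))
    rw [map_mul, map_mul, map_mul]
    calc _ = ve (sh 2 (by omega)) (sh_injective 2 (by omega : 2 + m ≤ m + 2)) σ *
          (ve (sh 2 (by omega)) (sh_injective 2 (by omega : 2 + m ≤ m + 2)) τ * zeta (0 : Fin (m + 2)) 1 (sign σ)) *
            zeta 0 1 (sign τ) := by group
      _ = _ := by rw [← hc]; group

theorem nu_val (σ : Perm (Fin m)) : (nu m σ).1 =
    ve (sh 2 (by omega)) (sh_injective 2 (by omega : 2 + m ≤ m + 2)) σ * zeta 0 1 (sign σ) := rfl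

theorem nu_small (σ : Perm (Fin m)) : (nu m σ).1 ∘ (sh 0 (by omega) : Fin 2 → Fin (m + 2)) =
    sh 0 (by omega) ∘ (zeta 0 1 (sign σ) : Perm (Fin 2)) := by
  have h0 : ∀ y : Fin (m + 2), (y : ℕ) < 2 → y ∉ Set.range (sh 2 (by omega : 2 + m ≤ m + 2)) := by
    rintro y hy ⟨z, rfl⟩
    rw [sh_val] at hy; omega
  have h1 : ∀ y : Fin (m + 2), (y : ℕ) < 2 →
      ve (sh 2 (by omega)) (sh_injective 2 (by omega : 2 + m ≤ m + 2)) σ y = y :=
    fun y hy => ve_notMem _ _ _ (h0 y hy)
  have e0 : (sh 0 (by omega) (0 : Fin 2) : Fin (m + 2)) = 0 := by apply Fin.ext; simp [sh_val]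
  have e1 : (sh 0 (by omega) (1 : Fin 2) : Fin (m + 2)) = 1 := by apply Fin.ext; simp [sh_val]
  funext i
  simp only [Function.comp_apply, nu_val, Equiv.Perm.mul_apply]
  rcases Int.units_eq_one_or (sign σ) with h | h
  · rw [h, zeta_one, zeta_one]
    fin_cases i
    · change ve _ _ σ (sh 0 (by omega) (0 : Fin 2)) = sh 0 (by omega) (0 : Fin 2)
      rw [e0]; exact h1 0 (by simp)
    · change ve _ _ σ (sh 0 (by omega) (1 : Fin 2)) = sh 0 (by omega) (1 : Fin 2)
      rw [e1]; exact h1 1 (by simp)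
  · rw [h, zeta_neg, zeta_neg]
    fin_cases i
    · change ve _ _ σ (swap 0 1 (sh 0 (by omega) (0 : Fin 2))) = sh 0 (by omega) (swap (0 : Fin 2) 1 0)
      rw [e0, Equiv.swap_apply_left, Equiv.swap_apply_left, e1]; exact h1 1 (by simp)
    · change ve _ _ σ (swap 0 1 (sh 0 (by omega) (1 : Fin 2))) = sh 0 (by omega) (swap (0 : Fin 2) 1 1)
      rw [e1, Equiv.swap_apply_right, Equiv.swap_apply_right, e0]; exact h1 0 (by simp)

/-- the stabiliser is the image of `nu` -/
theorem nu_surj (s : alternatingGroup (Fin (m + 2))) (τ : Perm (Fin 2))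
    (h : s.1 ∘ (sh 0 (by omega) : Fin 2 → Fin (m + 2)) = sh 0 (by omega) ∘ τ) :
    ∃ σ : Perm (Fin m), nu m σ = s ∧ zeta 0 1 (sign σ) = τ := by
  have hsmall : ∀ y : Fin (m + 2), (y : ℕ) < 2 → (s.1 y : ℕ) < 2 := by
    intro y hy
    have h1 : y = sh 0 (by omega) (⟨y, hy⟩ : Fin 2) := by apply Fin.ext; simp [sh_val]
    have h2 := congrFun h (⟨y, hy⟩ : Fin 2)
    simp only [Function.comp_apply] at h2
    rw [h1, h2, sh_val]; omega
  -- the large points
  have hlarge : ∀ y : Fin (m + 2), 2 ≤ (y : ℕ) → 2 ≤ (s.1 y : ℕ) := by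
    intro y hy
    by_contra hlt
    -- `s` maps `{0, 1}` onto itself
    have h3 : s.1 y = sh 0 (by omega) (⟨s.1 y, by omega⟩ : Fin 2) := by apply Fin.ext; simp [sh_val]
    have h4 := congrFun h (τ⁻¹ (⟨s.1 y, by omega⟩ : Fin 2))
    simp only [Function.comp_apply, pm_ais] at h4
    rw [← h3] at h4
    have h5 := s.1.injective h4
    have h6 := congrArg Fin.val h5
    rw [sh_val] at h6
    omega
  let f : Fin m → Fin m := fun x => ⟨(s.1 (sh 2 (by omega) x) : ℕ) - 2, by
    have h1 := x.2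
    have h2 := (s.1 (sh 2 (by omega) x)).2
    omega⟩
  have hf : ∀ x, sh 2 (by omega : 2 + m ≤ m + 2) (f x) = s.1 (sh 2 (by omega) x) := by
    intro x
    apply Fin.ext
    have := hlarge (sh 2 (by omega) x) (by rw [sh_val]; omega)
    simp only [sh_val, f]
    omega
  have hfinj : Function.Injective f := by
    intro x y hxy
    have h1 := hf x
    rw [hxy, hf y] at h1
    exact (sh_injective 2 (by omega : 2 + m ≤ m + 2) (s.1.injective h1)).symm
  let σ : Perm (Fin m) := Equiv.ofBijective f (Finite.injective_iff_bijective.1 hfinj)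
  have hσ : ∀ x : Fin m, ve (sh 2 (by omega)) (sh_injective 2 (by omega : 2 + m ≤ m + 2)) σ (sh 2 (by omega) x) =
      s.1 (sh 2 (by omega) x) := by
    intro x
    rw [ve_apply, ← hf]; rfl
  -- the rest
  set u := ve (sh 2 (by omega)) (sh_injective 2 (by omega : 2 + m ≤ m + 2)) σ with hu
  have hu0 : ∀ y : Fin (m + 2), (y : ℕ) < 2 → u y = y := by
    intro y hy
    apply ve_notMem
    rintro ⟨z, rfl⟩
    rw [sh_val] at hy; omega
  have hr : ∀ y : Fin (m + 2), 2 ≤ (y : ℕ) → (u⁻¹ * s.1) y = y := by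
    intro y hy
    have h1 : y = sh 2 (by omega : 2 + m ≤ m + 2) (⟨(y : ℕ) - 2, by omega⟩ : Fin m) := by
      apply Fin.ext; simp only [sh_val]; omega
    rw [Equiv.Perm.mul_apply, h1, ← hσ, pm_ias]
  have hr2 : ∀ y : Fin (m + 2), (y : ℕ) < 2 → (((u⁻¹ * s.1) y : Fin (m + 2)) : ℕ) < 2 := by
    intro y hy
    have h1 := hsmall y hy
    have h2 : (u⁻¹ * s.1) y = s.1 y := by
      rw [Equiv.Perm.mul_apply, Equiv.Perm.inv_eq_iff_eq, hu0 _ h1]
    rw [h2]; exact h1
  have e0 : (sh 0 (by omega) (0 : Fin 2) : Fin (m + 2)) = 0 := by apply Fin.ext; simp [sh_val]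
  have e1 : (sh 0 (by omega) (1 : Fin 2) : Fin (m + 2)) = 1 := by apply Fin.ext; simp [sh_val]
  have hz : u⁻¹ * s.1 = 1 ∨ u⁻¹ * s.1 = swap 0 1 := by
    set r := u⁻¹ * s.1 with hr'
    have h01 : ((0 : Fin (m + 2)) : ℕ) = 0 := rfl
    have h11 : ((1 : Fin (m + 2)) : ℕ) = 1 := by simp
    have a0 := hr2 0 (by simp)
    have a1 := hr2 1 (by simp)
    have hne : r 0 ≠ r 1 := fun h => by
      have := r.injective h
      simp at this
    have hcase : (r 0 = 0 ∧ r 1 = 1) ∨ (r 0 = 1 ∧ r 1 = 0) := by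
      have hne' : (r 0 : ℕ) ≠ (r 1 : ℕ) := fun h => hne (Fin.ext h)
      rcases Nat.lt_or_ge (r 0 : ℕ) 1 with h | h
      · left
        constructor
        · apply Fin.ext; rw [h01]; omega
        · apply Fin.ext; rw [h11]; omega
      · right
        constructor
        · apply Fin.ext; rw [h11]; omega
        · apply Fin.ext; rw [h01]; omega
    rcases hcase with ⟨c0, c1⟩ | ⟨c0, c1⟩
    · left
      ext y
      rw [Equiv.Perm.one_apply]
      rcases Nat.lt_or_ge (y : ℕ) 2 with hy | hy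
      · have : y = 0 ∨ y = 1 := by
          rcases Nat.lt_or_ge (y : ℕ) 1 with h | h
          · left; apply Fin.ext; rw [h01]; omega
          · right; apply Fin.ext; rw [h11]; omega
        rcases this with rfl | rfl
        · rw [c0]
        · rw [c1]
      · rw [hr y hy]
    · right
      ext y
      rcases Nat.lt_or_ge (y : ℕ) 2 with hy | hy
      · have : y = 0 ∨ y = 1 := by
          rcases Nat.lt_or_ge (y : ℕ) 1 with h | h
          · left; apply Fin.ext; rw [h01]; omega
          · right; apply Fin.ext; rw [h11]; omega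
        rcases this with rfl | rfl
        · rw [c0, Equiv.swap_apply_left]
        · rw [c1, Equiv.swap_apply_right]
      · rw [hr y hy, Equiv.swap_apply_of_ne_of_ne]
        · rintro rfl; rw [h01] at hy; omega
        · rintro rfl; rw [h11] at hy; omega
  have hs : s.1 = u * (u⁻¹ * s.1) := by group
  have hsgn : sign s.1 = 1 := Equiv.Perm.mem_alternatingGroup.1 s.2
  have hzeta : u⁻¹ * s.1 = zeta 0 1 (sign σ) := by
    have h1 : sign s.1 = sign σ * sign (u⁻¹ * s.1) := by
      conv_lhs => rw [hs]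
      rw [map_mul, hu, sign_ve]
    rcases hz with h | h
    · rw [h, map_one, mul_one, hsgn] at h1
      rw [h, ← h1, zeta_one]
    · rw [h, Equiv.Perm.sign_swap (by simp), hsgn] at h1
      have : sign σ = -1 := by
        rcases Int.units_eq_one_or (sign σ) with h2 | h2
        · rw [h2] at h1; exact absurd h1 (by decide)
        · exact h2
      rw [h, this, zeta_neg]
  refine ⟨σ, Subtype.ext ?_, ?_⟩
  · rw [nu_val, ← hzeta]
    exact hs.symm
  · -- `τ` is determined
    have h3 := nu_small σ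
    have h4 : (nu m σ).1 = s.1 := by rw [nu_val, ← hzeta]; exact hs.symm
    rw [h4, h] at h3
    ext i
    have h5 := congrFun h3 i
    simp only [Function.comp_apply] at h5
    exact (congrArg Fin.val (sh_injective 0 (by omega : 0 + 2 ≤ m + 2) h5)).symm

theorem dec_cyc : ∀ τ : Perm (Fin 3), sign τ = 1 → ∃ k : Fin 3, τ = (finRotate 3) ^ (k : ℕ) := by decide

end Perms

end Cfsg.Agent.H112
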