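import Cfsg.Agent.H112.PermMat

/-!
# `SU₃` glued with an alternating group gives a Phan system (helper112)

`GlueHyp hF n γ t`: `γ : SU 3 F q →* Q`, `t : alternatingGroup (Fin n) →* Q` compatible. `exists_system`: the
conjugates of `γ` form a `System`.
-/

set_option autoImplicit false

namespace Cfsg.Agent.H112

open Matrix Cfsg Cfsg.Agent.Phan
open Cfsg.Agent.LieClassical.HermBasic
open Equiv (Perm swap)
open Equiv.Perm (sign)

theorem pm_ais {α : Type*} (f : Perm α) (x : α) : f (f⁻¹ x) = x := f.apply_symm_apply x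

theorem pm_ias {α : Type*} (f : Perm α) (x : α) : f⁻¹ (f x) = x := f.symm_apply_apply x

theorem dec_two : ∀ τ : Perm (Fin 3), τ 2 = 2 →
    ∃ τ' : Perm (Fin 2), τ ∘ (sh 0 (by omega : 0 + 2 ≤ 3) : Fin 2 → Fin 3) = sh 0 (by omega) ∘ τ' := by decide

/-- decomposition of the injections `Fin 2 → Fin 3` -/
theorem dec_inj : ∀ f : Fin 2 → Fin 3, f 0 ≠ f 1 → ∃ (c : Perm (Fin 3)) (τ : Perm (Fin 2)), sign c = 1 ∧
    c ∘ (sh 0 (by omega : 0 + 2 ≤ 3) : Fin 2 → Fin 3) ∘ τ = f := by decide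

theorem dec_rot : sign (finRotate 3) = 1 ∧ (finRotate 3) ∘ (sh 0 (by omega : 0 + 2 ≤ 3) : Fin 2 → Fin 3) =
    sh 1 (by omega : 1 + 2 ≤ 3) := by decide

/-- every injection `Fin m → Fin n` extends to a permutation -/
theorem exists_perm_ext {m n : ℕ} (e f : Fin m → Fin n) (he : Function.Injective e) (hf : Function.Injective f) :
    ∃ ρ : Perm (Fin n), ρ ∘ e = f := by
  have h := Equiv.Perm.isMultiplyPretransitive (Fin n) m
  obtain ⟨ρ, hρ⟩ := h.exists_smul_eq ⟨e, he⟩ ⟨f, hf⟩
  refine ⟨ρ, ?_⟩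
  funext x
  have := DFunLike.congr_fun hρ x
  exact this

/-- ... up to a permutation of the source to an even permutation -/
theorem exists_even_ext {m n : ℕ} (e f : Fin m → Fin n) (he : Function.Injective e) (hf : Function.Injective f)
    (x y : Fin m) (hxy : x ≠ y) : ∃ (ρ : Perm (Fin n)) (τ : Perm (Fin m)), sign ρ = 1 ∧ ρ ∘ e ∘ τ = f ∧
      (τ = 1 ∨ τ = swap x y) := by
  obtain ⟨ρ, hρ⟩ := exists_perm_ext e f he hf
  rcases Int.units_eq_one_or (sign ρ) with h | h
  · exact ⟨ρ, 1, h, by rw [← hρ]; rfl, Or.inl rfl⟩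
  · refine ⟨ρ * swap (e x) (e y), swap x y, ?_, ?_, Or.inr rfl⟩
    · rw [map_mul, h, Equiv.Perm.sign_swap (fun h => hxy (he h))]; rfl
    · rw [← hρ]
      funext z
      simp only [Function.comp_apply, Equiv.Perm.mul_apply]
      congr 1
      have h1 : ∀ z, e (swap x y z) = swap (e x) (e y) (e z) := by
        intro z
        by_cases h1 : z = x
        · subst h1; rw [Equiv.swap_apply_left, Equiv.swap_apply_left]
        · by_cases h2 : z = y
          · subst h2; rw [Equiv.swap_apply_right, Equiv.swap_apply_right]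
          · rw [Equiv.swap_apply_of_ne_of_ne h1 h2,
              Equiv.swap_apply_of_ne_of_ne (fun h => h1 (he h)) (fun h => h2 (he h))]
      rw [h1, Equiv.swap_apply_self]

variable {F : Type*} [Field F] {q : ℕ} [Fintype F]

/-- the data of the gluing -/
structure GlueHyp (hF : Fintype.card F = q ^ 2) (n : ℕ) (hn : 3 ≤ n) {Q : Type*} [Group Q] (γ : SU 3 F q →* Q)
    (t : alternatingGroup (Fin n) →* Q) : Prop where
  c : ∀ (s : alternatingGroup (Fin n)) (τ : alternatingGroup (Fin 3)),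
    s.1 ∘ (sh 0 (by omega) : Fin 3 → Fin n) = sh 0 (by omega) ∘ τ.1 →
    (∀ x, x ∉ Set.range (sh 0 (by omega) : Fin 3 → Fin n) → s.1 x = x) → t s = γ (pm F q 3 τ)
  s : ∀ (s : alternatingGroup (Fin n)) (τ : Perm (Fin 2)),
    s.1 ∘ (sh 0 (by omega) : Fin 2 → Fin n) = sh 0 (by omega) ∘ τ → ∀ x : SU 2 F q,
    t s * γ (emb hF 0 (by omega) x) * (t s)⁻¹ = γ (emb hF 0 (by omega) (ext hF τ τ.injective x))
  d : ∀ (ρ : alternatingGroup (Fin n)), (∀ i j : Fin 2, ρ.1 (sh 0 (by omega) i) ≠ sh 0 (by omega) j) →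
    ∀ x y : SU 2 F q, Commute (γ (emb hF 0 (by omega) x)) (t ρ * γ (emb hF 0 (by omega) y) * (t ρ)⁻¹)

namespace GlueHyp

variable {hF : Fintype.card F = q ^ 2} {n : ℕ} {hn : 3 ≤ n} {Q : Type*} [Group Q] {γ : SU 3 F q →* Q}
  {t : alternatingGroup (Fin n) →* Q} (G : GlueHyp hF n hn γ t)

/-- the conjugates of the first `SU 2` -/
def psi2 (hF : Fintype.card F = q ^ 2) {Q : Type*} [Group Q] (γ : SU 3 F q →* Q)
    (t : alternatingGroup (Fin n) →* Q) (π : alternatingGroup (Fin n)) (τ : Perm (Fin 2)) : SU 2 F q →* Q :=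
  (MulAut.conj (t π)).toMonoidHom.comp (γ.comp ((emb hF 0 (by omega)).comp (ext hF τ τ.injective)))

/-- the conjugates of the `SU 3` -/
def psi3 (hF : Fintype.card F = q ^ 2) {Q : Type*} [Group Q] (γ : SU 3 F q →* Q)
    (t : alternatingGroup (Fin n) →* Q) (π : alternatingGroup (Fin n)) (τ : Perm (Fin 3)) : SU 3 F q →* Q :=
  (MulAut.conj (t π)).toMonoidHom.comp (γ.comp (ext hF τ τ.injective))

theorem psi2_apply (π : alternatingGroup (Fin n)) (τ : Perm (Fin 2)) (x : SU 2 F q) :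
    psi2 hF γ t π τ x = t π * γ (emb hF 0 (by omega) (ext hF τ τ.injective x)) * (t π)⁻¹ := rfl

theorem psi3_apply (π : alternatingGroup (Fin n)) (τ : Perm (Fin 3)) (x : SU 3 F q) :
    psi3 hF γ t π τ x = t π * γ (ext hF τ τ.injective x) * (t π)⁻¹ := rfl

omit [Field F] [Fintype F] in
theorem sh_comp {a b c : ℕ} (h1 : 0 + a ≤ b) (h2 : 0 + b ≤ c) (h3 : 0 + a ≤ c) :
    (sh 0 h2 : Fin b → Fin c) ∘ (sh 0 h1 : Fin a → Fin b) = sh 0 h3 := by
  funext i
  apply Fin.ext
  simp only [Function.comp_apply, sh_val]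
  omega

include G

theorem psi2_wd {π π' : alternatingGroup (Fin n)} {τ τ' : Perm (Fin 2)}
    (h : π.1 ∘ (sh 0 (by omega) : Fin 2 → Fin n) ∘ τ = π'.1 ∘ (sh 0 (by omega) : Fin 2 → Fin n) ∘ τ') :
    psi2 hF γ t π τ = psi2 hF γ t π' τ' := by
  ext x
  rw [psi2_apply, psi2_apply]
  have h1 := G.s (π'⁻¹ * π) (τ' * τ⁻¹) (by
    funext i
    have := congrFun h (τ⁻¹ i)
    simp only [Function.comp_apply, pm_ais] at this
    simp only [Function.comp_apply, Subgroup.coe_mul, InvMemClass.coe_inv, Equiv.Perm.mul_apply]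
    rw [this, pm_ias]) (ext hF τ τ.injective x)
  rw [ext_comp] at h1
  have h2 : ext hF ((τ' * τ⁻¹ : Perm (Fin 2)) ∘ τ) ((τ' * τ⁻¹ : Perm (Fin 2)).injective.comp τ.injective) x =
      ext hF τ' τ'.injective x := ext_congr hF _ _ (by funext i; simp) x
  rw [h2, map_mul, map_inv] at h1
  rw [← h1]; group

/-- generators of `SU 3` -/
theorem conj3 (hq : 3 ≤ q) (s : alternatingGroup (Fin n)) (τ : Perm (Fin 3))
    (h : s.1 ∘ (sh 0 (by omega) : Fin 3 → Fin n) = sh 0 (by omega) ∘ τ) (x : SU 3 F q) :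
    t s * γ x * (t s)⁻¹ = γ (ext hF τ τ.injective x) := by
  -- the case `τ 2 = 2`
  have key : ∀ (s : alternatingGroup (Fin n)) (τ : Perm (Fin 3)),
      s.1 ∘ (sh 0 (by omega) : Fin 3 → Fin n) = sh 0 (by omega) ∘ τ → τ 2 = 2 → ∀ x : SU 3 F q,
      t s * γ x * (t s)⁻¹ = γ (ext hF τ τ.injective x) := by
    intro s τ h h2 x
    -- first coordinates
    have k1 : ∀ y : SU 2 F q, t s * γ (emb hF 0 (by omega) y) * (t s)⁻¹ =
        γ (ext hF τ τ.injective (emb hF 0 (by omega) y)) := by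
      intro y
      obtain ⟨τ', hτ'⟩ := dec_two τ h2
      have h3 := G.s s τ' (by
        rw [← sh_comp (by omega : 0 + 2 ≤ 3) (by omega : 0 + 3 ≤ n) (by omega)]
        funext i
        have e1 := congrFun h (sh 0 (by omega) i)
        have e2 := congrFun hτ' i
        simp only [Function.comp_apply] at e1 e2 ⊢
        rw [e1, e2]) y
      rw [h3]
      congr 1
      rw [emb, ext_comp, ext_comp]
      exact ext_congr hF _ _ hτ'.symm y
    -- the cycle
    have k2 : ∀ c : alternatingGroup (Fin 3), t s * γ (pm F q 3 c) * (t s)⁻¹ =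
        γ (ext hF τ τ.injective (pm F q 3 c)) := by
      intro c
      let cN : alternatingGroup (Fin n) := ⟨c.1.viaFintypeEmbedding ⟨sh 0 (by omega), sh_injective 0 (by omega)⟩, by
        rw [Equiv.Perm.mem_alternatingGroup, Equiv.Perm.viaFintypeEmbedding_sign]
        exact Equiv.Perm.mem_alternatingGroup.1 c.2⟩
      have c1 : ∀ i, cN.1 (sh 0 (by omega : 0 + 3 ≤ n) i) = sh 0 (by omega) (c.1 i) := fun i =>
        Equiv.Perm.viaFintypeEmbedding_apply_image c.1 ⟨sh 0 (by omega), sh_injective 0 (by omega)⟩ i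
      have c2 : ∀ x, x ∉ Set.range (sh 0 (by omega) : Fin 3 → Fin n) → cN.1 x = x := fun x hx =>
        Equiv.Perm.viaFintypeEmbedding_apply_notMem_range c.1 ⟨sh 0 (by omega), sh_injective 0 (by omega)⟩ hx
      have e1 : t cN = γ (pm F q 3 c) := G.c cN c (by funext i; exact c1 i) c2
      let c' : alternatingGroup (Fin 3) := ⟨τ * c.1 * τ⁻¹, by
        rw [Equiv.Perm.mem_alternatingGroup, map_mul, map_mul, Equiv.Perm.mem_alternatingGroup.1 c.2, mul_one,
          map_inv, mul_inv_cancel]⟩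
      have hs' : ∀ i, s.1⁻¹ (sh 0 (by omega : 0 + 3 ≤ n) i) = sh 0 (by omega) (τ⁻¹ i) := by
        intro i
        rw [Equiv.Perm.inv_eq_iff_eq]
        have := congrFun h (τ⁻¹ i)
        simp only [Function.comp_apply, pm_ais] at this
        exact this.symm
      have e2 : t (s * cN * s⁻¹) = γ (pm F q 3 c') := by
        apply G.c
        · funext i
          have h5 := congrFun h (c.1 (τ⁻¹ i))
          simp only [Function.comp_apply] at h5
          simp only [Function.comp_apply, Subgroup.coe_mul, InvMemClass.coe_inv, Equiv.Perm.mul_apply]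
          rw [hs', c1, h5]
          rfl
        · intro x hx
          have hx' : s.1⁻¹ x ∉ Set.range (sh 0 (by omega) : Fin 3 → Fin n) := by
            rintro ⟨i, hi⟩
            apply hx
            refine ⟨τ i, ?_⟩
            have := congrFun h i
            simp only [Function.comp_apply] at this
            rw [← this, hi, pm_ais]
          simp only [Subgroup.coe_mul, InvMemClass.coe_inv, Equiv.Perm.mul_apply]
          rw [c2 _ hx', pm_ais]
      rw [← e1, ← map_inv, ← map_mul, ← map_mul, e2]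
      congr 1
      -- `ext τ (pm c) = pm (τ c τ⁻¹)`
      apply mat_inj
      rw [mat_ext, mat_pm, mat_pm]
      have h6 := inc_mul_extM (F := F) τ (id : Fin 3 → Fin 3) (inc F (c.1 : Fin 3 → Fin 3))
      have h7 : extM (id : Fin 3 → Fin 3) (inc F (c.1 : Fin 3 → Fin 3)) = inc F (c.1 : Fin 3 → Fin 3) := by
        have : inc F (id : Fin 3 → Fin 3) = 1 := by
          ext i j; rw [inc_apply, Matrix.one_apply]; rfl
        rw [extM, this]; simp
      rw [h7] at h6
      have h8 : inc F (τ : Fin 3 → Fin 3) * inc F (τ⁻¹ : Perm (Fin 3)) = 1 := by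
        rw [inc_mul_inc]
        have : (τ : Fin 3 → Fin 3) ∘ (τ⁻¹ : Perm (Fin 3)) = id := by funext i; simp
        rw [this]
        ext i j; rw [inc_apply, Matrix.one_apply]; rfl
      have h9 : extM (τ : Fin 3 → Fin 3) (inc F (c.1 : Fin 3 → Fin 3)) =
          inc F (τ : Fin 3 → Fin 3) * inc F (c.1 : Fin 3 → Fin 3) * inc F (τ⁻¹ : Perm (Fin 3)) := by
        rw [h6, Matrix.mul_assoc]
        change _ = extM (τ : Fin 3 → Fin 3) (inc F (c.1 : Fin 3 → Fin 3)) * (_ * _)
        rw [h8, Matrix.mul_one]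
      rw [h9, inc_mul_inc, inc_mul_inc]
      rfl
    -- everything
    have hx : x ∈ Subgroup.closure {y : SU (1 + 2) F q | ∃ (j : ℕ) (h : j + 2 ≤ 1 + 2) (x : SU 2 F q),
        emb hF j h x = y} := by rw [closure_emb_eq_top hF hq 1]; trivial
    induction hx using Subgroup.closure_induction with
    | mem y hy =>
      obtain ⟨j, hj, x, rfl⟩ := hy
      have hj' : j = 0 ∨ j = 1 := by omega
      rcases hj' with rfl | rfl
      · exact k1 x
      · -- `emb 1 x = c (emb 0 x) c⁻¹`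
        obtain ⟨c, hc⟩ : ∃ c : alternatingGroup (Fin 3), c.1 ∘ (sh 0 (by omega) : Fin 2 → Fin 3) =
            sh 1 (by omega) := ⟨⟨finRotate 3, Equiv.Perm.mem_alternatingGroup.2 dec_rot.1⟩, dec_rot.2⟩
        have e3 : emb hF 1 hj x = pm F q 3 c * emb hF 0 (by omega) x * (pm F q 3 c)⁻¹ := by
          rw [emb, emb, pm_ext']
          exact ext_congr hF _ _ hc.symm x
        rw [e3]
        simp only [map_mul, map_inv]
        rw [← k2, ← k1]
        group
    | one => simp
    | mul a b _ _ ha hb => rw [map_mul, map_mul, map_mul, ← ha, ← hb]; group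
    | inv a _ ha => rw [map_inv, map_inv, map_inv, ← ha]; group
  -- the general case
  obtain ⟨c, hc⟩ : ∃ c : alternatingGroup (Fin 3), (c.1 * τ) 2 = 2 := by
    revert τ
    intro τ _
    have : ∀ j : Fin 3, ∃ c : Perm (Fin 3), sign c = 1 ∧ c j = 2 := by decide
    obtain ⟨c, h1, h2⟩ := this (τ 2)
    exact ⟨⟨c, Equiv.Perm.mem_alternatingGroup.2 h1⟩, h2⟩
  let cN : alternatingGroup (Fin n) := ⟨c.1.viaFintypeEmbedding ⟨sh 0 (by omega), sh_injective 0 (by omega)⟩, by
    rw [Equiv.Perm.mem_alternatingGroup, Equiv.Perm.viaFintypeEmbedding_sign]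
    exact Equiv.Perm.mem_alternatingGroup.1 c.2⟩
  have c1 : ∀ i, cN.1 (sh 0 (by omega : 0 + 3 ≤ n) i) = sh 0 (by omega) (c.1 i) := fun i =>
    Equiv.Perm.viaFintypeEmbedding_apply_image c.1 ⟨sh 0 (by omega), sh_injective 0 (by omega)⟩ i
  have c2 : ∀ x, x ∉ Set.range (sh 0 (by omega) : Fin 3 → Fin n) → cN.1 x = x := fun x hx =>
    Equiv.Perm.viaFintypeEmbedding_apply_notMem_range c.1 ⟨sh 0 (by omega), sh_injective 0 (by omega)⟩ hx
  have e1 : t cN = γ (pm F q 3 c) := G.c cN c (by funext i; exact c1 i) c2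
  have e2 := key (cN * s) (c.1 * τ) (by
    funext i
    have := congrFun h i
    simp only [Function.comp_apply] at this
    simp only [Function.comp_apply, Subgroup.coe_mul, Equiv.Perm.mul_apply]
    rw [this, c1]) hc x
  rw [map_mul, e1] at e2
  have e3 : ext hF (c.1 * τ : Perm (Fin 3)) (c.1 * τ : Perm (Fin 3)).injective x =
      pm F q 3 c * ext hF τ τ.injective x * (pm F q 3 c)⁻¹ := by
    rw [pm_conj hF, ext_comp]
    exact ext_congr hF _ _ rfl x
  rw [e3, map_mul, map_mul, map_inv] at e2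
  have e4 : γ (pm F q 3 c) * (t s * γ x * (t s)⁻¹) * (γ (pm F q 3 c))⁻¹ =
      γ (pm F q 3 c) * γ (ext hF τ τ.injective x) * (γ (pm F q 3 c))⁻¹ := by
    rw [← e2]; group
  exact mul_left_cancel (mul_right_cancel e4)

theorem psi3_wd (hq : 3 ≤ q) {π π' : alternatingGroup (Fin n)} {τ τ' : Perm (Fin 3)}
    (h : π.1 ∘ (sh 0 (by omega) : Fin 3 → Fin n) ∘ τ = π'.1 ∘ (sh 0 (by omega) : Fin 3 → Fin n) ∘ τ') :
    psi3 hF γ t π τ = psi3 hF γ t π' τ' := by
  ext x
  rw [psi3_apply, psi3_apply]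
  have h1 := G.conj3 hq (π'⁻¹ * π) (τ' * τ⁻¹) (by
    funext i
    have := congrFun h (τ⁻¹ i)
    simp only [Function.comp_apply, pm_ais] at this
    simp only [Function.comp_apply, Subgroup.coe_mul, InvMemClass.coe_inv, Equiv.Perm.mul_apply]
    rw [this, pm_ias]) (ext hF τ τ.injective x)
  rw [ext_comp] at h1
  have h2 : ext hF ((τ' * τ⁻¹ : Perm (Fin 3)) ∘ τ) ((τ' * τ⁻¹ : Perm (Fin 3)).injective.comp τ.injective) x =
      ext hF τ' τ'.injective x := ext_congr hF _ _ (by funext i; simp) x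
  rw [h2, map_mul, map_inv] at h1
  rw [← h1]; group

/-- `γ` on the embedded `SU 2` -/
theorem psi3_ext (π : alternatingGroup (Fin n)) (τ : Perm (Fin 3)) (f : Fin 2 → Fin 3)
    (hf : Function.Injective f) (π' : alternatingGroup (Fin n)) (τ' : Perm (Fin 2))
    (h : π'.1 ∘ (sh 0 (by omega) : Fin 2 → Fin n) ∘ τ' = π.1 ∘ (sh 0 (by omega) : Fin 3 → Fin n) ∘ τ ∘ f)
    (a : SU 2 F q) : psi3 hF γ t π τ (ext hF f hf a) = psi2 hF γ t π' τ' a := by
  obtain ⟨c, τ₁, hc, h1⟩ := dec_inj (τ ∘ f) (fun h => by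
    have := hf (τ.injective h)
    exact absurd this (by decide))
  let c' : alternatingGroup (Fin 3) := ⟨c, Equiv.Perm.mem_alternatingGroup.2 hc⟩
  let cN : alternatingGroup (Fin n) := ⟨c.viaFintypeEmbedding ⟨sh 0 (by omega), sh_injective 0 (by omega)⟩, by
    rw [Equiv.Perm.mem_alternatingGroup, Equiv.Perm.viaFintypeEmbedding_sign]; exact hc⟩
  have c1 : ∀ i, cN.1 (sh 0 (by omega : 0 + 3 ≤ n) i) = sh 0 (by omega) (c i) := fun i =>
    Equiv.Perm.viaFintypeEmbedding_apply_image c ⟨sh 0 (by omega), sh_injective 0 (by omega)⟩ i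
  have c2 : ∀ x, x ∉ Set.range (sh 0 (by omega) : Fin 3 → Fin n) → cN.1 x = x := fun x hx =>
    Equiv.Perm.viaFintypeEmbedding_apply_notMem_range c ⟨sh 0 (by omega), sh_injective 0 (by omega)⟩ hx
  have e1 : t cN = γ (pm F q 3 c') := G.c cN c' (by funext i; exact c1 i) c2
  have e2 : psi2 hF γ t (π * cN) τ₁ = psi2 hF γ t π' τ' := by
    apply G.psi2_wd
    rw [h]
    funext i
    have e3 := congrFun h1 i
    simp only [Function.comp_apply] at e3
    simp only [Function.comp_apply, Subgroup.coe_mul, Equiv.Perm.mul_apply]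
    rw [← e3]
    congr 1
    have e4 := congrFun (sh_comp (by omega : 0 + 2 ≤ 3) (by omega : 0 + 3 ≤ n) (by omega)) (τ₁ i)
    simp only [Function.comp_apply] at e4
    rw [← e4, c1]
  rw [← e2, psi3_apply, psi2_apply, map_mul, e1]
  have e5 : ext hF τ τ.injective (ext hF f hf a) =
      pm F q 3 c' * emb hF 0 (by omega) (ext hF τ₁ τ₁.injective a) * (pm F q 3 c')⁻¹ := by
    rw [emb, ext_comp, ext_comp, pm_ext']
    exact ext_congr hF _ _ h1.symm a
  rw [e5, map_mul, map_mul, map_inv]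
  group

end GlueHyp

theorem ex_p3 (n k : ℕ) : ∃ p : alternatingGroup (Fin n) × Perm (Fin 3), ∀ (h0 : 0 + 3 ≤ n) (hk : k + 3 ≤ n),
    p.1.1 ∘ (sh 0 h0 : Fin 3 → Fin n) ∘ p.2 = sh k hk := by
  classical
  by_cases hk : k + 3 ≤ n
  · obtain ⟨ρ, τ, h1, h2, -⟩ := exists_even_ext (sh 0 (by omega) : Fin 3 → Fin n) (sh k hk)
      (sh_injective _ _) (sh_injective _ _) 0 1 (by decide)
    exact ⟨(⟨ρ, Equiv.Perm.mem_alternatingGroup.2 h1⟩, τ), fun _ _ => h2⟩
  · exact ⟨(1, 1), fun _ h => absurd h hk⟩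

theorem ex_p2 (n k : ℕ) : ∃ p : alternatingGroup (Fin n) × Perm (Fin 2), ∀ (h0 : 0 + 2 ≤ n) (hk : k + 2 ≤ n),
    p.1.1 ∘ (sh 0 h0 : Fin 2 → Fin n) ∘ p.2 = sh k hk := by
  classical
  by_cases hk : k + 2 ≤ n
  · obtain ⟨ρ, τ, h1, h2, -⟩ := exists_even_ext (sh 0 (by omega) : Fin 2 → Fin n) (sh k hk)
      (sh_injective _ _) (sh_injective _ _) 0 1 (by decide)
    exact ⟨(⟨ρ, Equiv.Perm.mem_alternatingGroup.2 h1⟩, τ), fun _ _ => h2⟩
  · exact ⟨(1, 1), fun _ h => absurd h hk⟩

/-- an even permutation carrying `0, 1, 2` to `k, k+1, k+2` up to a permutation -/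
noncomputable def p3 (n k : ℕ) : alternatingGroup (Fin n) × Perm (Fin 3) := Classical.choose (ex_p3 n k)

/-- an even permutation carrying `0, 1` to `k, k+1` up to a permutation -/
noncomputable def p2 (n k : ℕ) : alternatingGroup (Fin n) × Perm (Fin 2) := Classical.choose (ex_p2 n k)

theorem p3_spec (n k : ℕ) (h0 : 0 + 3 ≤ n) (hk : k + 3 ≤ n) :
    (p3 n k).1.1 ∘ (sh 0 h0 : Fin 3 → Fin n) ∘ (p3 n k).2 = sh k hk := Classical.choose_spec (ex_p3 n k) h0 hk

theorem p2_spec (n k : ℕ) (h0 : 0 + 2 ≤ n) (hk : k + 2 ≤ n) :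
    (p2 n k).1.1 ∘ (sh 0 h0 : Fin 2 → Fin n) ∘ (p2 n k).2 = sh k hk := Classical.choose_spec (ex_p2 n k) h0 hk

/-- the homomorphisms of the system -/
noncomputable def phiS {n : ℕ} (hF : Fintype.card F = q ^ 2) {Q : Type*} [Group Q] (γ : SU 3 F q →* Q)
    (t : alternatingGroup (Fin n) →* Q) (k : ℕ) : SU 2 F q →* Q := GlueHyp.psi2 hF γ t (p2 n k).1 (p2 n k).2

/-- the homomorphisms of the system -/
noncomputable def gS {n : ℕ} (hF : Fintype.card F = q ^ 2) {Q : Type*} [Group Q] (γ : SU 3 F q →* Q)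
    (t : alternatingGroup (Fin n) →* Q) (k : ℕ) : SU 3 F q →* Q := GlueHyp.psi3 hF γ t (p3 n k).1 (p3 n k).2

/-- compatibility with homomorphisms -/
theorem phiS_map {n : ℕ} (hF : Fintype.card F = q ^ 2) {Q R : Type*} [Group Q] [Group R] (f : Q →* R)
    (γ : SU 3 F q →* Q) (t : alternatingGroup (Fin n) →* Q) (k : ℕ) (x : SU 2 F q) :
    f (phiS hF γ t k x) = phiS hF (f.comp γ) (f.comp t) k x := by
  rw [phiS, phiS, GlueHyp.psi2_apply, GlueHyp.psi2_apply, map_mul, map_mul, map_inv]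
  rfl

namespace GlueHyp

variable {hF : Fintype.card F = q ^ 2} {n : ℕ} {hn : 3 ≤ n} {Q : Type*} [Group Q] {γ : SU 3 F q →* Q}
  {t : alternatingGroup (Fin n) →* Q} (G : GlueHyp hF n hn γ t)

include G

theorem gS_zero (hq : 3 ≤ q) (x : SU 3 F q) : gS hF γ t 0 x = γ x := by
  have h1 : psi3 hF γ t (p3 n 0).1 (p3 n 0).2 = psi3 hF γ t 1 1 := G.psi3_wd hq (by
    rw [p3_spec n 0 (by omega) (by omega)]; rfl)
  rw [gS, h1, psi3_apply, map_one, one_mul, inv_one, mul_one]
  congr 1
  exact ext_id hF x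

/-- conjugation by an even permutation carrying `j, j+1` to `k, k+1` -/
theorem phiS_conj (π : alternatingGroup (Fin n)) {j k : ℕ} (hj : j + 2 ≤ n) (hk : k + 2 ≤ n)
    (h : π.1 ∘ (sh j hj : Fin 2 → Fin n) = sh k hk) (x : SU 2 F q) :
    t π * phiS hF γ t j x * (t π)⁻¹ = phiS hF γ t k x := by
  have h1 : psi2 hF γ t (π * (p2 n j).1) (p2 n j).2 = psi2 hF γ t (p2 n k).1 (p2 n k).2 := G.psi2_wd (by
    rw [p2_spec n k (by omega) hk, ← h, ← p2_spec n j (by omega) hj]; rfl)
  rw [phiS, phiS, ← h1, psi2_apply, psi2_apply, map_mul]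
  group

/-- **The Phan system.** -/
theorem system (hq : 3 ≤ q) : System hF n (phiS hF γ t) (gS hF γ t) := by
  classical
  have hp3 : ∀ k (hk : k + 3 ≤ n), (p3 n k).1.1 ∘ (sh 0 (by omega) : Fin 3 → Fin n) ∘ (p3 n k).2 = sh k hk :=
    fun k hk => p3_spec n k _ hk
  have hp2 : ∀ k (hk : k + 2 ≤ n), (p2 n k).1.1 ∘ (sh 0 (by omega) : Fin 2 → Fin n) ∘ (p2 n k).2 = sh k hk :=
    fun k hk => p2_spec n k _ hk
  refine ⟨?_, ?_, ?_⟩
  · intro k hk a
    rw [emb, gS, phiS]
    apply G.psi3_ext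
    rw [hp2 k (by omega)]
    funext i
    have := congrFun (hp3 k hk) (sh 0 (by omega) i)
    simp only [Function.comp_apply] at this ⊢
    rw [this]
    apply Fin.ext
    simp only [sh_val]
    omega
  · intro k hk a
    rw [emb, gS, phiS]
    apply G.psi3_ext
    rw [hp2 (k + 1) (by omega)]
    funext i
    have := congrFun (hp3 k hk) (sh 1 (by omega) i)
    simp only [Function.comp_apply] at this ⊢
    rw [this]
    apply Fin.ext
    simp only [sh_val]
    omega
  · -- commutation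
    intro i j hij hj a b
    let f : Fin 4 → Fin n := fun x => if h : (x : ℕ) < 2 then ⟨i + x, by omega⟩ else ⟨j + (x - 2), by omega⟩
    have hf : Function.Injective f := by
      intro x y hxy
      have h1 := congrArg Fin.val hxy
      simp only [f] at h1
      apply Fin.ext
      split at h1 <;> split at h1 <;> simp only at h1 <;> omega
    obtain ⟨ρ, hρ⟩ := exists_perm_ext (sh 0 (by omega) : Fin 4 → Fin n) f (sh_injective _ _) hf
    -- make it even
    obtain ⟨ρ', τ, hρ', h01, h23⟩ : ∃ (ρ' : Perm (Fin n)) (τ : Perm (Fin 2)), sign ρ' = 1 ∧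
        ρ' ∘ (sh 0 (by omega) : Fin 2 → Fin n) ∘ τ = sh i (by omega) ∧
        ρ' ∘ (sh 2 (by omega) : Fin 2 → Fin n) = sh j (by omega) := by
      have r0 : ∀ x : Fin 4, ρ (sh 0 (by omega) x) = f x := fun x => congrFun hρ x
      have r2 : ∀ x : Fin 2, ρ (sh 2 (by omega) x) = sh j (by omega) x := by
        intro x
        have h1 : (sh 2 (by omega) x : Fin n) = sh 0 (by omega : 0 + 4 ≤ n) ⟨2 + x, by omega⟩ := by
          apply Fin.ext; simp only [sh_val]; omega
        rw [h1, r0]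
        apply Fin.ext
        simp only [f, sh_val]
        rw [dif_neg (by omega)]
        simp only
        omega
      have r1 : ∀ x : Fin 2, ρ (sh 0 (by omega) x) = sh i (by omega) x := by
        intro x
        have h1 : (sh 0 (by omega) x : Fin n) = sh 0 (by omega : 0 + 4 ≤ n) ⟨x, by omega⟩ := by
          apply Fin.ext; simp only [sh_val]
        rw [h1, r0]
        apply Fin.ext
        simp only [f, sh_val]
        rw [dif_pos (by omega)]
      rcases Int.units_eq_one_or (sign ρ) with h | h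
      · exact ⟨ρ, 1, h, by funext x; exact r1 x, by funext x; exact r2 x⟩
      · have hne : (sh 0 (by omega : 0 + 2 ≤ n) 0 : Fin n) ≠ sh 0 (by omega : 0 + 2 ≤ n) 1 := fun h =>
          absurd (sh_injective 0 (by omega : 0 + 2 ≤ n) h) (by decide)
        refine ⟨ρ * swap (sh 0 (by omega) (0 : Fin 2)) (sh 0 (by omega) (1 : Fin 2)), swap 0 1, ?_, ?_, ?_⟩
        · rw [map_mul, h, Equiv.Perm.sign_swap hne]; rfl
        · funext x
          simp only [Function.comp_apply, Equiv.Perm.mul_apply]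
          fin_cases x
          · change ρ (swap _ _ (sh 0 _ (swap (0 : Fin 2) 1 0))) = _
            rw [Equiv.swap_apply_left, Equiv.swap_apply_right]
            exact r1 0
          · change ρ (swap _ _ (sh 0 _ (swap (0 : Fin 2) 1 1))) = _
            rw [Equiv.swap_apply_right, Equiv.swap_apply_left]
            exact r1 1
        · funext x
          simp only [Function.comp_apply, Equiv.Perm.mul_apply]
          rw [Equiv.swap_apply_of_ne_of_ne]
          · exact r2 x
          · intro h1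
            have := congrArg Fin.val h1
            simp only [sh_val] at this
            simp at this
          · intro h1
            have := congrArg Fin.val h1
            simp only [sh_val] at this
            simp at this
            omega
    let π : alternatingGroup (Fin n) := ⟨ρ', Equiv.Perm.mem_alternatingGroup.2 hρ'⟩
    -- the permutation carrying `0, 1` to `2, 3`
    obtain ⟨d, τd, hd, hd2, hd3⟩ := exists_even_ext (sh 0 (by omega) : Fin 2 → Fin n)
      (sh 2 (by omega)) (sh_injective _ _) (sh_injective _ _) 0 1 (by decide)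
    let d' : alternatingGroup (Fin n) := ⟨d, Equiv.Perm.mem_alternatingGroup.2 hd⟩
    have e1 : psi2 hF γ t (p2 n i).1 (p2 n i).2 = psi2 hF γ t π τ := G.psi2_wd (by
      rw [hp2 i (by omega)]; exact h01.symm)
    have e2 : psi2 hF γ t (p2 n j).1 (p2 n j).2 = psi2 hF γ t (π * d') τd := G.psi2_wd (by
      rw [hp2 j (by omega)]
      funext x
      have := congrFun hd2 x
      simp only [Function.comp_apply] at this
      simp only [Function.comp_apply, Subgroup.coe_mul, Equiv.Perm.mul_apply]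
      change _ = ρ' (d _)
      rw [this]
      exact (congrFun h23 x).symm)
    rw [phiS, phiS, e1, e2, psi2_apply, psi2_apply]
    have h4 := G.d d' (by
      intro x y hxy
      have h5 := congrFun hd2 (τd⁻¹ x)
      simp only [Function.comp_apply, pm_ais] at h5
      have h6 : (sh 0 (by omega) y : Fin n) = sh 2 (by omega) (τd⁻¹ x) := by
        rw [← hxy]; exact h5
      have := congrArg Fin.val h6
      simp only [sh_val] at this
      omega) (ext hF τ τ.injective a) (ext hF τd τd.injective b)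
    have h7 : Commute (t π * γ (emb hF 0 (by omega) (ext hF τ τ.injective a)) * (t π)⁻¹)
        (t π * (t d' * γ (emb hF 0 (by omega) (ext hF τd τd.injective b)) * (t d')⁻¹) * (t π)⁻¹) := by
      have := h4.map (MulAut.conj (t π)).toMonoidHom
      exact this
    have h8 : t π * (t d' * γ (emb hF 0 (by omega) (ext hF τd τd.injective b)) * (t d')⁻¹) * (t π)⁻¹ =
        t (π * d') * γ (emb hF 0 (by omega) (ext hF τd τd.injective b)) * (t (π * d'))⁻¹ := by
      rw [map_mul]; group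
    rw [h8] at h7
    exact h7.eq
/-- the 3-cycles -/
theorem gS_pm (k : ℕ) (hk : k + 3 ≤ n) (s : alternatingGroup (Fin n)) (τ : alternatingGroup (Fin 3))
    (hs1 : s.1 ∘ (sh k hk : Fin 3 → Fin n) = sh k hk ∘ τ.1)
    (hs2 : ∀ x, x ∉ Set.range (sh k hk : Fin 3 → Fin n) → s.1 x = x) : t s = gS hF γ t k (pm F q 3 τ) := by
    rw [gS]
    have hp := p3_spec n k (by omega) hk
    set π := (p3 n k).1
    set ρ := (p3 n k).2
    let τ' : alternatingGroup (Fin 3) := ⟨ρ * τ.1 * ρ⁻¹, by
      rw [Equiv.Perm.mem_alternatingGroup, map_mul, map_mul, Equiv.Perm.mem_alternatingGroup.1 τ.2, mul_one,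
        map_inv, mul_inv_cancel]⟩
    have hp' : ∀ x, π.1 (sh 0 (by omega) (ρ x)) = sh k hk x := fun x => congrFun hp x
    have e1 : t (π⁻¹ * s * π) = γ (pm F q 3 τ') := by
      apply G.c
      · funext x
        simp only [Function.comp_apply, Subgroup.coe_mul, InvMemClass.coe_inv, Equiv.Perm.mul_apply]
        have h1 := hp' (ρ⁻¹ x)
        rw [pm_ais] at h1
        have h2 := congrFun hs1 (ρ⁻¹ x)
        simp only [Function.comp_apply] at h2
        rw [h1, h2, ← hp', pm_ias]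
        rfl
      · intro x hx
        simp only [Subgroup.coe_mul, InvMemClass.coe_inv, Equiv.Perm.mul_apply]
        rw [hs2, pm_ias]
        rintro ⟨y, hy⟩
        apply hx
        refine ⟨ρ y, ?_⟩
        apply π.1.injective
        rw [hp', hy]
    rw [psi3_apply]
    have e2 : ext hF ρ ρ.injective (pm F q 3 τ) = pm F q 3 τ' := by
      apply mat_inj
      rw [mat_ext, mat_pm, mat_pm]
      have h6 := inc_mul_extM (F := F) ρ (id : Fin 3 → Fin 3) (inc F (τ.1 : Fin 3 → Fin 3))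
      have h7 : extM (id : Fin 3 → Fin 3) (inc F (τ.1 : Fin 3 → Fin 3)) = inc F (τ.1 : Fin 3 → Fin 3) := by
        have : inc F (id : Fin 3 → Fin 3) = 1 := by
          ext i j; rw [inc_apply, Matrix.one_apply]; rfl
        rw [extM, this]; simp
      rw [h7] at h6
      have h8 : inc F (ρ : Fin 3 → Fin 3) * inc F (ρ⁻¹ : Perm (Fin 3)) = 1 := by
        rw [inc_mul_inc]
        have : (ρ : Fin 3 → Fin 3) ∘ (ρ⁻¹ : Perm (Fin 3)) = id := by funext i; simp
        rw [this]
        ext i j; rw [inc_apply, Matrix.one_apply]; rfl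
      have h9 : extM (ρ : Fin 3 → Fin 3) (inc F (τ.1 : Fin 3 → Fin 3)) =
          inc F (ρ : Fin 3 → Fin 3) * inc F (τ.1 : Fin 3 → Fin 3) * inc F (ρ⁻¹ : Perm (Fin 3)) := by
        rw [h6, Matrix.mul_assoc]
        change _ = extM (ρ : Fin 3 → Fin 3) (inc F (τ.1 : Fin 3 → Fin 3)) * (_ * _)
        rw [h8, Matrix.mul_one]
      rw [h9, inc_mul_inc, inc_mul_inc]
      rfl
    rw [e2, ← e1, map_mul, map_mul, map_inv]
    group

end GlueHyp

end Cfsg.Agent.H112
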