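import Cfsg.Agent.H112.GlueQuo
import Cfsg.Agent.H112.SU2Gen
import Cfsg.Agent.H112.SUIso
import Cfsg.Agent.H110.AltPres
import Cfsg.Agent.H173.PresSix

/-!
# Presentations of `SU n F q`, `n ≥ 4`, `q ≥ 4` (helper112)
-/

set_option autoImplicit false

namespace Cfsg.Agent.H112

open Cfsg.Agent.H111

theorem alt_four : HasPres (alternatingGroup (Fin 4)) 3 5 := H173.Pres.presOn_a4.hasPres.succ

theorem alt_five : HasPres (alternatingGroup (Fin 5)) 3 5 := H173.Pres.presOn_a5.hasPres.succ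

/-- the general counting: `SU 3` with 3 generators and `r` relators, `e` extra relators -/
theorem glue_count {F : Type*} [Field F] {q r e : ℕ} {n : ℕ}
    (h3 : HasPres (SU 3 F q) 3 r)
    (h : Quo (Monoid.Coprod (SU 3 F q) (alternatingGroup (Fin n))) (SU n F q) (8 + e)) :
    HasPres (SU n F q) 6 (r + 15 + e) ∧ (n = 4 ∨ n = 5 → HasPres (SU n F q) 6 (r + 13 + e)) := by
  constructor
  · exact (h3.coprod (H110.AltPres.hasPres_alt n)).quo_le h (by omega)
  · rintro (rfl | rfl)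
    · exact (h3.coprod alt_four).quo_le h (by omega)
    · exact (h3.coprod alt_five).quo_le h (by omega)

theorem pres_ge_four {F : Type*} [Field F] [Fintype F] {q : ℕ} (hF : Fintype.card F = q ^ 2) (hq : 4 ≤ q) {n : ℕ}
    (hn : 4 ≤ n) : HasPres (SU n F q) 6 37 ∧ (n = 4 ∨ n = 5 → HasPres (SU n F q) 6 35) := by
  obtain ⟨m, rfl⟩ : ∃ m, n = m + 2 := ⟨n - 2, by omega⟩
  obtain ⟨x, hx⟩ := su2_two hF (by omega)
  obtain ⟨σ, hσ⟩ := perm_two m (by omega)
  exact glue_count (e := 0) (pres_SU3 (by rw [Nat.card_eq_fintype_card, hF]) (by omega))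
    (quo_four hF hq (by omega) x hx σ hσ)

end Cfsg.Agent.H112
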