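import Cfsg.Agent.H112.ReflCert

/-!
# The complex reflection group `G₃₂` modulo its centre has order at most 25920 (helper112)
-/

set_option autoImplicit false

namespace Cfsg.Agent.H112.Refl

open Cfsg.Agent.SporadicRecognition.CosetCert Cfsg.Agent.SporadicRecognition.CosetCertHyp

variable {Γ : Type*} [Group Γ]

/-- the relations -/
structure IsRefl (s t u v : Γ) : Prop where
  hs : s ^ 3 = 1
  b1 : s * t * s = t * s * t
  b2 : t * u * t = u * t * u
  b3 : u * v * u = v * u * v
  c1 : s * u = u * s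
  c2 : s * v = v * s
  c3 : t * v = v * t
  z : (s * t * u * v) ^ 5 = 1

theorem cube' {s : Γ} (h : s ^ 3 = 1) : s * (s * (s * 1)) = 1 := by
  rw [mul_one, ← mul_assoc, ← pow_two, ← pow_succ, h]

theorem cube_of_braid {s t : Γ} (h : s ^ 3 = 1) (b : s * t * s = t * s * t) : t ^ 3 = 1 := by
  have h1 : t = (s * t) * s * (s * t)⁻¹ := by
    rw [b]; group
  rw [h1, conj_pow, h, mul_one, mul_inv_cancel]

variable {s t u v : Γ} (h : IsRefl s t u v)

section
variable (s t u v)
/-- the letters -/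
def g2 : ℕ → Γ := fun n => [s, s⁻¹, t, t⁻¹].getD n 1
/-- the letters -/
def g3 : ℕ → Γ := fun n => [s, s⁻¹, t, t⁻¹, u, u⁻¹].getD n 1
/-- the letters -/
def g4 : ℕ → Γ := fun n => [s, s⁻¹, t, t⁻¹, u, u⁻¹, v, v⁻¹].getD n 1
end

include h

theorem IsRefl.ht : t ^ 3 = 1 := cube_of_braid h.hs h.b1
theorem IsRefl.hu : u ^ 3 = 1 := cube_of_braid h.ht h.b2
theorem IsRefl.hv : v ^ 3 = 1 := cube_of_braid h.hu h.b3

theorem hyp2 : Hyp c2 (Subgroup.zpowers s) (g2 s t) := by
  refine hyp_of_checks _ _ c2 c2rels c2sub rfl ?_ ?_ ?_ (by decide +kernel)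
  · intro x hx
    have hx' : x < 4 := hx
    interval_cases x <;> refine ⟨by decide, ?_⟩
    · change s * s⁻¹ = 1; group
    · change s⁻¹ * s = 1; group
    · change t * t⁻¹ = 1; group
    · change t⁻¹ * t = 1; group
  · intro r hr
    simp only [c2rels, List.mem_cons, List.not_mem_nil, or_false] at hr
    rcases hr with rfl | rfl | rfl
    · exact cube' h.hs
    · exact cube' h.ht
    · change s * (t * (s * (t⁻¹ * (s⁻¹ * (t⁻¹ * 1))))) = 1
      have := h.b1
      calc s * (t * (s * (t⁻¹ * (s⁻¹ * (t⁻¹ * 1))))) = (s * t * s) * (t * s * t)⁻¹ := by group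
        _ = 1 := by rw [this, mul_inv_cancel]
  · intro r hr
    simp only [c2sub, List.mem_cons, List.not_mem_nil, or_false] at hr
    subst hr
    change s * 1 ∈ _
    rw [mul_one]; exact Subgroup.mem_zpowers s

omit h in
theorem closure_eq {k : ℕ} {g : ℕ → Γ} {S : Set Γ} (h1 : ∀ x < k, g x ∈ Subgroup.closure S) (h2 : ∀ y ∈ S, ∃ x < k, g x = y) :
    Subgroup.closure (g '' {x | x < k}) = Subgroup.closure S := by
  apply le_antisymm
  · rw [Subgroup.closure_le]
    rintro _ ⟨x, hx, rfl⟩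
    exact h1 x hx
  · rw [Subgroup.closure_le]
    intro y hy
    obtain ⟨x, hx, rfl⟩ := h2 y hy
    exact Subgroup.subset_closure ⟨x, hx, rfl⟩

theorem card2 : Finite (Subgroup.closure ({s, t} : Set Γ)) ∧ Nat.card (Subgroup.closure ({s, t} : Set Γ)) ≤ 24 := by
  have hz : Finite (Subgroup.zpowers s) ∧ Nat.card (Subgroup.zpowers s) ≤ 3 := by
    have h1 : orderOf s ∣ 3 := orderOf_dvd_of_pow_eq_one h.hs
    have h2 : 0 < orderOf s := Nat.pos_of_dvd_of_pos h1 (by norm_num)
    refine ⟨?_, ?_⟩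
    · apply Nat.finite_of_card_ne_zero
      rw [Nat.card_zpowers]; omega
    · rw [Nat.card_zpowers]; exact Nat.le_of_dvd (by norm_num) h1
  have := hz.1
  obtain ⟨h1, h2⟩ := card_closure_le c2 (Subgroup.zpowers s) (g2 s t) (hyp2 h) c2_part
  have e : Subgroup.closure (g2 s t '' {x | x < c2.k}) = Subgroup.closure {s, t} := by
    apply closure_eq
    · intro x hx
      have hx' : x < 4 := hx
      interval_cases x
      · exact Subgroup.subset_closure (Or.inl rfl)
      · exact inv_mem (Subgroup.subset_closure (Or.inl rfl))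
      · exact Subgroup.subset_closure (Or.inr rfl)
      · exact inv_mem (Subgroup.subset_closure (Or.inr rfl))
    · rintro y (rfl | rfl)
      · exact ⟨0, by decide, rfl⟩
      · exact ⟨2, by decide, rfl⟩
  rw [e] at h1 h2
  exact ⟨h1, h2.trans (by omega)⟩

theorem hyp3 : Hyp c3 (Subgroup.closure {s, t}) (g3 s t u) := by
  refine hyp_of_checks _ _ c3 c3rels c3sub rfl ?_ ?_ ?_ (by decide +kernel)
  · intro x hx
    have hx' : x < 6 := hx
    interval_cases x <;> refine ⟨by decide, ?_⟩
    · change s * s⁻¹ = 1; group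
    · change s⁻¹ * s = 1; group
    · change t * t⁻¹ = 1; group
    · change t⁻¹ * t = 1; group
    · change u * u⁻¹ = 1; group
    · change u⁻¹ * u = 1; group
  · intro r hr
    simp only [c3rels, List.mem_cons, List.not_mem_nil, or_false] at hr
    rcases hr with rfl | rfl | rfl | rfl | rfl | rfl
    · exact cube' h.hs
    · exact cube' h.ht
    · exact cube' h.hu
    · change s * (t * (s * (t⁻¹ * (s⁻¹ * (t⁻¹ * 1))))) = 1
      calc s * (t * (s * (t⁻¹ * (s⁻¹ * (t⁻¹ * 1))))) = (s * t * s) * (t * s * t)⁻¹ := by group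
        _ = 1 := by rw [h.b1, mul_inv_cancel]
    · change t * (u * (t * (u⁻¹ * (t⁻¹ * (u⁻¹ * 1))))) = 1
      calc t * (u * (t * (u⁻¹ * (t⁻¹ * (u⁻¹ * 1))))) = (t * u * t) * (u * t * u)⁻¹ := by group
        _ = 1 := by rw [h.b2, mul_inv_cancel]
    · change s * (u * (s⁻¹ * (u⁻¹ * 1))) = 1
      calc s * (u * (s⁻¹ * (u⁻¹ * 1))) = (s * u) * (u * s)⁻¹ := by group
        _ = 1 := by rw [h.c1, mul_inv_cancel]
  · intro r hr
    simp only [c3sub, List.mem_cons, List.not_mem_nil, or_false] at hr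
    rcases hr with rfl | rfl
    · change s * 1 ∈ _
      rw [mul_one]; exact Subgroup.subset_closure (Or.inl rfl)
    · change t * 1 ∈ _
      rw [mul_one]; exact Subgroup.subset_closure (Or.inr rfl)

theorem card3 : Finite (Subgroup.closure ({s, t, u} : Set Γ)) ∧ Nat.card (Subgroup.closure ({s, t, u} : Set Γ)) ≤ 648 := by
  obtain ⟨f2, k2⟩ := card2 h
  obtain ⟨h1, h2⟩ := card_closure_le c3 (Subgroup.closure {s, t}) (g3 s t u) (hyp3 h) c3_part
  have e : Subgroup.closure (g3 s t u '' {x | x < c3.k}) = Subgroup.closure {s, t, u} := by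
    apply closure_eq
    · intro x hx
      have hx' : x < 6 := hx
      interval_cases x
      · exact Subgroup.subset_closure (Or.inl rfl)
      · exact inv_mem (Subgroup.subset_closure (Or.inl rfl))
      · exact Subgroup.subset_closure (Or.inr (Or.inl rfl))
      · exact inv_mem (Subgroup.subset_closure (Or.inr (Or.inl rfl)))
      · exact Subgroup.subset_closure (Or.inr (Or.inr rfl))
      · exact inv_mem (Subgroup.subset_closure (Or.inr (Or.inr rfl)))
    · rintro y (rfl | rfl | rfl)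
      · exact ⟨0, by decide, rfl⟩
      · exact ⟨2, by decide, rfl⟩
      · exact ⟨4, by decide, rfl⟩
  rw [e] at h1 h2
  exact ⟨h1, h2.trans (by omega)⟩

theorem hyp4 : Hyp c4 (Subgroup.closure {s, t, u}) (g4 s t u v) := by
  refine hyp_of_checks _ _ c4 c4rels c4sub rfl ?_ ?_ ?_ (by decide +kernel)
  · intro x hx
    have hx' : x < 8 := hx
    interval_cases x <;> refine ⟨by decide, ?_⟩
    · change s * s⁻¹ = 1; group
    · change s⁻¹ * s = 1; group
    · change t * t⁻¹ = 1; group
    · change t⁻¹ * t = 1; group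
    · change u * u⁻¹ = 1; group
    · change u⁻¹ * u = 1; group
    · change v * v⁻¹ = 1; group
    · change v⁻¹ * v = 1; group
  · intro r hr
    simp only [c4rels, List.mem_cons, List.not_mem_nil, or_false] at hr
    rcases hr with rfl | rfl | rfl | rfl | rfl | rfl | rfl | rfl | rfl | rfl | rfl
    · exact cube' h.hs
    · exact cube' h.ht
    · exact cube' h.hu
    · exact cube' h.hv
    · change s * (t * (s * (t⁻¹ * (s⁻¹ * (t⁻¹ * 1))))) = 1
      calc s * (t * (s * (t⁻¹ * (s⁻¹ * (t⁻¹ * 1))))) = (s * t * s) * (t * s * t)⁻¹ := by group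
        _ = 1 := by rw [h.b1, mul_inv_cancel]
    · change t * (u * (t * (u⁻¹ * (t⁻¹ * (u⁻¹ * 1))))) = 1
      calc t * (u * (t * (u⁻¹ * (t⁻¹ * (u⁻¹ * 1))))) = (t * u * t) * (u * t * u)⁻¹ := by group
        _ = 1 := by rw [h.b2, mul_inv_cancel]
    · change u * (v * (u * (v⁻¹ * (u⁻¹ * (v⁻¹ * 1))))) = 1
      calc u * (v * (u * (v⁻¹ * (u⁻¹ * (v⁻¹ * 1))))) = (u * v * u) * (v * u * v)⁻¹ := by group
        _ = 1 := by rw [h.b3, mul_inv_cancel]
    · change s * (u * (s⁻¹ * (u⁻¹ * 1))) = 1
      calc s * (u * (s⁻¹ * (u⁻¹ * 1))) = (s * u) * (u * s)⁻¹ := by group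
        _ = 1 := by rw [h.c1, mul_inv_cancel]
    · change s * (v * (s⁻¹ * (v⁻¹ * 1))) = 1
      calc s * (v * (s⁻¹ * (v⁻¹ * 1))) = (s * v) * (v * s)⁻¹ := by group
        _ = 1 := by rw [h.c2, mul_inv_cancel]
    · change t * (v * (t⁻¹ * (v⁻¹ * 1))) = 1
      calc t * (v * (t⁻¹ * (v⁻¹ * 1))) = (t * v) * (v * t)⁻¹ := by group
        _ = 1 := by rw [h.c3, mul_inv_cancel]
    · change s * (t * (u * (v * (s * (t * (u * (v * (s * (t * (u * (v * (s * (t * (u * (v * (s * (t * (u * (v * 1))))))))))))))))))) = 1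
      have h5 : (s * t * u * v) ^ 5 = (s * t * u * v) * ((s * t * u * v) * ((s * t * u * v) * ((s * t * u * v) * (s * t * u * v)))) := by
        rw [pow_succ', pow_succ', pow_succ', pow_succ', pow_one]
      have h6 := h.z
      rw [h5] at h6
      simp only [mul_assoc] at h6
      rw [mul_one]
      exact h6
  · intro r hr
    simp only [c4sub, List.mem_cons, List.not_mem_nil, or_false] at hr
    rcases hr with rfl | rfl | rfl
    · change s * 1 ∈ _
      rw [mul_one]; exact Subgroup.subset_closure (Or.inl rfl)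
    · change t * 1 ∈ _
      rw [mul_one]; exact Subgroup.subset_closure (Or.inr (Or.inl rfl))
    · change u * 1 ∈ _
      rw [mul_one]; exact Subgroup.subset_closure (Or.inr (Or.inr rfl))

theorem card4 : Finite (Subgroup.closure ({s, t, u, v} : Set Γ)) ∧
    Nat.card (Subgroup.closure ({s, t, u, v} : Set Γ)) ≤ 25920 := by
  obtain ⟨f3, k3⟩ := card3 h
  obtain ⟨h1, h2⟩ := card_closure_le c4 (Subgroup.closure {s, t, u}) (g4 s t u v) (hyp4 h) c4_part
  have e : Subgroup.closure (g4 s t u v '' {x | x < c4.k}) = Subgroup.closure {s, t, u, v} := by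
    apply closure_eq
    · intro x hx
      have hx' : x < 8 := hx
      interval_cases x
      · exact Subgroup.subset_closure (Or.inl rfl)
      · exact inv_mem (Subgroup.subset_closure (Or.inl rfl))
      · exact Subgroup.subset_closure (Or.inr (Or.inl rfl))
      · exact inv_mem (Subgroup.subset_closure (Or.inr (Or.inl rfl)))
      · exact Subgroup.subset_closure (Or.inr (Or.inr (Or.inl rfl)))
      · exact inv_mem (Subgroup.subset_closure (Or.inr (Or.inr (Or.inl rfl))))
      · exact Subgroup.subset_closure (Or.inr (Or.inr (Or.inr rfl)))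
      · exact inv_mem (Subgroup.subset_closure (Or.inr (Or.inr (Or.inr rfl))))
    · rintro y (rfl | rfl | rfl | rfl)
      · exact ⟨0, by decide, rfl⟩
      · exact ⟨2, by decide, rfl⟩
      · exact ⟨4, by decide, rfl⟩
      · exact ⟨6, by decide, rfl⟩
  rw [e] at h1 h2
  exact ⟨h1, h2.trans (by omega)⟩

end Cfsg.Agent.H112.Refl
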