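import Cfsg.Agent.H112.ReflModel
import Cfsg.Agent.S0283
import Cfsg.Agent.S0278
import Cfsg.Agent.H173.PresSmall
import Cfsg.Agent.LieClassical.FieldTransfer

/-!
# `SU 4 (2)` is generated by four reflections of order three; a presentation (helper112)
-/

set_option autoImplicit false

namespace Cfsg.Agent.H112.Refl

open Matrix Cfsg Cfsg.Agent.Phan
open Cfsg.Agent.LieClassical.HermBasic
open Cfsg.Agent.Lib.FieldFour

/-- a normal subgroup not contained in the centre -/
theorem eq_top_of_simple_quo {G : Type*} [Group G] (hp : commutator G = ⊤) (hs : IsSimpleGroup (G ⧸ Subgroup.center G))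
    (M : Subgroup G) [M.Normal] (h : ¬ M ≤ Subgroup.center G) : M = ⊤ := by
  have hn : (M.map (QuotientGroup.mk' (Subgroup.center G))).Normal :=
    Subgroup.Normal.map inferInstance _ (QuotientGroup.mk'_surjective _)
  rcases hs.eq_bot_or_eq_top_of_normal _ hn with h1 | h1
  · exfalso
    apply h
    rwa [Subgroup.map_eq_bot_iff, QuotientGroup.ker_mk'] at h1
  · -- `M Z = G`
    have h2 : ∀ x : G, ∃ m ∈ M, ∃ z ∈ Subgroup.center G, x = m * z := by
      intro x
      have h3 : QuotientGroup.mk' (Subgroup.center G) x ∈ M.map (QuotientGroup.mk' (Subgroup.center G)) := by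
        rw [h1]; trivial
      obtain ⟨m, hm, hmx⟩ := h3
      refine ⟨m, hm, m⁻¹ * x, ?_, by group⟩
      exact QuotientGroup.eq.1 hmx
    rw [eq_top_iff, ← hp, commutator_def, Subgroup.commutator_le]
    intro x _ y _
    obtain ⟨m, hm, z, hz, rfl⟩ := h2 x
    obtain ⟨m', hm', z', hz', rfl⟩ := h2 y
    rw [commutatorElement_def]
    have e : (m * z) * (m' * z') * (m * z)⁻¹ * (m' * z')⁻¹ = m * m' * m⁻¹ * m'⁻¹ := by
      have c1 : ∀ g, z * g = g * z := fun g => (Subgroup.mem_center_iff.1 hz g).symm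
      have c2 : ∀ g, z' * g = g * z' := fun g => (Subgroup.mem_center_iff.1 hz' g).symm
      rw [_root_.mul_inv_rev, _root_.mul_inv_rev]
      calc m * z * (m' * z') * (z⁻¹ * m⁻¹) * (z'⁻¹ * m'⁻¹)
          = m * (z * (m' * z') * z⁻¹) * m⁻¹ * z'⁻¹ * m'⁻¹ := by group
        _ = m * m' * (z' * m⁻¹) * z'⁻¹ * m'⁻¹ := by rw [c1]; group
        _ = _ := by rw [c2]; group
    rw [e]
    exact M.mul_mem (M.mul_mem (M.mul_mem hm hm') (M.inv_mem hm)) (M.inv_mem hm')

/-- the group generated -/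
def MM : Subgroup (SU 4 F4 2) := Subgroup.closure {r1, r2, r3, r4}

/-- the good roots -/
def Good (p : V4) : Prop := ∃ h : hv p p = 1, rv p h ∈ MM

theorem good_act (a b : V4) (ha : Good a) (hb : Good b) : Good (actv a b) := by
  obtain ⟨ha, ha'⟩ := ha
  obtain ⟨hb, hb'⟩ := hb
  have h1 : hv (actv a b) (actv a b) = 1 := by
    rw [← herm_toV, ← rv_mulVec a ha, mat_isom, herm_toV, hb]
  refine ⟨h1, ?_⟩
  have h2 : rv (actv a b) h1 = rv a ha * rv b hb * (rv a ha)⁻¹ := by
    unfold rv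
    rw [rs_conj]
    exact rs_congr (rv_mulVec a ha b).symm _ _
  rw [h2]
  exact MM.mul_mem (MM.mul_mem ha' hb') (MM.inv_mem ha')

theorem good_gen : ∀ a ∈ [a1, a2, a3, a4], Good a := by
  intro a ha
  simp only [List.mem_cons, List.not_mem_nil, or_false] at ha
  rcases ha with rfl | rfl | rfl | rfl
  · exact ⟨by decide, Subgroup.subset_closure (Or.inl rfl)⟩
  · exact ⟨by decide, Subgroup.subset_closure (Or.inr (Or.inl rfl))⟩
  · exact ⟨by decide, Subgroup.subset_closure (Or.inr (Or.inr (Or.inl rfl)))⟩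
  · exact ⟨by decide, Subgroup.subset_closure (Or.inr (Or.inr (Or.inr rfl)))⟩

theorem good_allr : ∀ a ∈ allr, Good a := by
  intro a ha
  rw [allr, List.mem_append, List.mem_map] at ha
  rcases ha with ha | ⟨x, hx, rfl⟩
  · exact good_gen a ha
  · exact chk_sound Good good_act chain _ good_gen chk_chain x hx

theorem good_smv {c : F4} (hc : c * c ^ 2 = 1) {a : V4} (ha : Good a) : Good (smv c a) := by
  obtain ⟨ha, ha'⟩ := ha
  have e : toV (smv c a) = c • toV a := by
    funext i
    fin_cases i <;> rfl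
  have h1 : hv (smv c a) (smv c a) = 1 := by
    rw [← herm_toV, e, herm_smul_left, herm_smul_right, herm_toV, ha, mul_one, hc]
  refine ⟨h1, ?_⟩
  have h2 : rv (smv c a) h1 = rv a ha := rs_smul hc e _ _
  rw [h2]; exact ha'

theorem good_all (u : V4) (hu : hv u u = 1) : Good u := by
  have h := chk_all u hu
  rw [List.any_eq_true] at h
  obtain ⟨a, ha, h⟩ := h
  rw [Bool.or_eq_true, Bool.or_eq_true, decide_eq_true_eq, decide_eq_true_eq, decide_eq_true_eq] at h
  have hg := good_allr a ha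
  rcases h with (rfl | rfl) | rfl
  · exact hg
  · exact good_smv (by decide) hg
  · exact good_smv (by decide) hg

theorem MM_normal : MM.Normal := by
  refine ⟨?_⟩
  intro x hx g
  have key : ∀ (a : V4) (ha : hv a a = 1), g * rv a ha * g⁻¹ ∈ MM := by
    intro a ha
    unfold rv
    rw [rs_conj]
    obtain ⟨p, hp⟩ := toV_surj (mat g *ᵥ toV a)
    have h1 : hv p p = 1 := by rw [← herm_toV, hp, mat_isom, herm_toV, ha]
    obtain ⟨h2, h3⟩ := good_all p h1
    have h4 : rv p h2 = rs (mat g *ᵥ toV a) (by rw [mat_isom, herm_toV]; exact ha) := rs_congr hp _ _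
    rw [h4] at h3
    exact h3
  unfold MM at hx
  induction hx using Subgroup.closure_induction with
  | mem x hx =>
    rcases hx with rfl | rfl | rfl | rfl
    · exact key a1 _
    · exact key a2 _
    · exact key a3 _
    · exact key a4 _
  | one => rw [mul_one, mul_inv_cancel]; exact MM.one_mem
  | mul a b _ _ ha hb =>
    have : g * (a * b) * g⁻¹ = (g * a * g⁻¹) * (g * b * g⁻¹) := by group
    rw [this]; exact MM.mul_mem ha hb
  | inv a _ ha =>
    have : g * a⁻¹ * g⁻¹ = (g * a * g⁻¹)⁻¹ := by group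
    rw [this]; exact MM.inv_mem ha

theorem MM_top : MM = ⊤ := by
  have hn := MM_normal
  refine eq_top_of_simple_quo (LieClassical.HermPerfect.commutator_SU_eq_top hF4 (by norm_num) (by norm_num))
    (Cfsg.Agent.S0283.result hF4 4 (by norm_num) (by norm_num)) MM ?_
  intro h
  have h1 : r1 ∈ Subgroup.center (SU 4 F4 2) := h (Subgroup.subset_closure (Or.inl rfl))
  have h2 : r2 * r1 = r1 * r2 := Subgroup.mem_center_iff.1 h1 r2
  have h3 := congrArg (fun g : SU 4 F4 2 => mat g *ᵥ toV (bas 0)) h2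
  simp only [mat_mul, ← Matrix.mulVec_mulVec, r1_mulVec, r2_mulVec] at h3
  have h4 := congrFun h3 1
  revert h4
  change ¬ ((actv a2 (actv a1 (bas 0))).2.1 = (actv a1 (actv a2 (bas 0))).2.1)
  decide

theorem card_SU4 : Nat.card (SU 4 F4 2) = 25920 := by
  have h := Cfsg.Agent.S0278.result (F := F4) (q := 2) hF4 4 (by norm_num)
  norm_num [Finset.prod_range_succ, Nat.even_iff] at h
  omega

instance finiteSUFourFFour : Finite (SU 4 F4 2) := Nat.finite_of_card_ne_zero (by rw [card_SU4]; norm_num)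

/-- the relators -/
def relR : List (FreeGroup (Fin 4)) :=
  let s := FreeGroup.of (0 : Fin 4)
  let t := FreeGroup.of (1 : Fin 4)
  let u := FreeGroup.of (2 : Fin 4)
  let v := FreeGroup.of (3 : Fin 4)
  [s ^ 3, (s * t * s) * (t * s * t)⁻¹, (t * u * t) * (u * t * u)⁻¹, (u * v * u) * (v * u * v)⁻¹,
    (s * u) * (u * s)⁻¹, (s * v) * (v * s)⁻¹, (t * v) * (v * t)⁻¹, (s * t * u * v) ^ 5]

theorem relR_iff {Γ : Type*} [Group Γ] (y : Fin 4 → Γ) : (∀ r ∈ relR, FreeGroup.lift y r = 1) ↔
    IsRefl (y 0) (y 1) (y 2) (y 3) := by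
  simp only [relR, List.mem_cons, List.not_mem_nil, or_false, forall_eq_or_imp, forall_eq, map_mul, map_pow, map_inv,
      FreeGroup.lift_apply_of, mul_inv_eq_one]
  constructor
  · rintro ⟨h1, h2, h3, h4, h5, h6, h7, h8⟩
    exact ⟨h1, h2, h3, h4, h5, h6, h7, h8⟩
  · rintro ⟨h1, h2, h3, h4, h5, h6, h7, h8⟩
    exact ⟨h1, h2, h3, h4, h5, h6, h7, h8⟩

theorem range_four {α : Type*} (y : Fin 4 → α) : Set.range y = {y 0, y 1, y 2, y 3} := by
  ext x
  simp only [Set.mem_range, Set.mem_insert_iff, Set.mem_singleton_iff]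
  constructor
  · rintro ⟨i, rfl⟩
    fin_cases i
    · exact Or.inl rfl
    · exact Or.inr (Or.inl rfl)
    · exact Or.inr (Or.inr (Or.inl rfl))
    · exact Or.inr (Or.inr (Or.inr rfl))
  · rintro (rfl | rfl | rfl | rfl)
    · exact ⟨0, rfl⟩
    · exact ⟨1, rfl⟩
    · exact ⟨2, rfl⟩
    · exact ⟨3, rfl⟩

/-- **a presentation of `SU 4 (2)`** -/
theorem pres_SU4_F4 : H111.HasPres (SU 4 F4 2) 4 8 := by
  have h := H173.Pres.PresOn.of_card ![r1, r2, r3, r4] ?_ relR ?_ ?_
  · exact h.hasPres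
  · rw [range_four]
    exact MM_top
  · rw [relR_iff]
    exact isRefl
  · intro y hy hr
    rw [relR_iff] at hr
    rw [range_four] at hy
    obtain ⟨h1, h2⟩ := card4 hr
    rw [hy] at h1 h2
    rw [card_SU4]
    exact ⟨Finite.of_equiv _ Subgroup.topEquiv.toEquiv, by rwa [Subgroup.card_top] at h2⟩

/-- **a presentation of `SU 4 (2)`** -/
theorem pres_SU4 {F : Type*} [Field F] [Fintype F] (hF : Fintype.card F = 2 ^ 2) : H111.HasPres (SU 4 F 2) 4 8 := by
  have hcard : Fintype.card F4 = Fintype.card F := by rw [hF4, hF]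
  let e : F4 ≃+* F := FiniteField.ringEquivOfCardEq hcard
  exact pres_SU4_F4.of_mulEquiv (LieClassical.FieldTransfer.suCongr 4 2 e)

end Cfsg.Agent.H112.Refl
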