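import Cfsg.Agent.H112.SUPresOf
import Cfsg.Agent.H112.SUIso

/-!
# `SU₃(3)`: 3 generators and 13 relators (helper112)
-/

set_option autoImplicit false

namespace Cfsg.Agent.H112

open Cfsg.Agent.UThreeGen.MatGroup Matrix Cfsg.Agent.H111

section abs

variable {X : Type*} [Group X]

/-- the relations of the Borel subgroup, `q = 3` -/
structure BRel3 (u h z : X) (a b i j k : ℤ) : Prop where
  h8 : h ^ 8 = 1
  z3 : z ^ 3 = 1
  zh : h * z * h⁻¹ = z⁻¹
  uz : Commute u z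
  u3 : u ^ 3 = z ^ a
  uv : u * (h * u * h⁻¹) * u⁻¹ = z ^ b * (h * u * h⁻¹)
  v2 : h * (h * u * h⁻¹) * h⁻¹ = u ^ i * (h * u * h⁻¹) ^ j * z ^ k

variable {u h z : X} {a b i j k : ℤ}

namespace BRel3

theorem vz (R : BRel3 u h z a b i j k) : Commute (h * u * h⁻¹) z := by
  have h1 := R.uz.map (MulAut.conj h).toMonoidHom
  have h2 : Commute (h * u * h⁻¹) (h * z * h⁻¹) := h1
  rw [R.zh] at h2
  exact (Commute.inv_right_iff).1 h2

/-- exchange -/
theorem swp (R : BRel3 u h z a b i j k) (m n : ℤ) :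
    (h * u * h⁻¹) ^ m * u ^ n = z ^ (-(b * m * n)) * (u ^ n * (h * u * h⁻¹) ^ m) := by
  have hv := R.vz
  set v := h * u * h⁻¹ with hvd
  have e1 : u * v ^ m * u⁻¹ = z ^ (b * m) * v ^ m := by
    rw [← conj_zpow, R.uv, (hv.symm.zpow_left b).mul_zpow, ← _root_.zpow_mul]
  have e2 : v ^ (-m) * u * v ^ m = z ^ (b * m) * u := by
    have : u * v ^ m = z ^ (b * m) * v ^ m * u := by rw [← e1]; group
    have h3 : v ^ (-m) * z ^ (b * m) = z ^ (b * m) * v ^ (-m) := (hv.zpow_zpow _ _).eq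
    rw [mul_assoc, this, ← mul_assoc, ← mul_assoc, h3]
    group
  have e3 : v ^ (-m) * u ^ n * v ^ m = z ^ (b * m * n) * u ^ n := by
    have h4 : v ^ (-m) * u ^ n * v ^ m = (v ^ (-m) * u * v ^ m) ^ n := by
      have := (conj_zpow (a := v ^ (-m)) (b := u) (i := n))
      rw [_root_.zpow_neg, inv_inv] at this
      rw [_root_.zpow_neg, this]
    rw [h4, e2, (R.uz.symm.zpow_left _).mul_zpow, ← _root_.zpow_mul]
  have h5 : z ^ (b * m * n) * v ^ m = v ^ m * z ^ (b * m * n) := (hv.symm.zpow_zpow _ _).eq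
  calc v ^ m * u ^ n = z ^ (-(b * m * n)) * (z ^ (b * m * n) * v ^ m) * u ^ n := by group
    _ = z ^ (-(b * m * n)) * (v ^ m * (z ^ (b * m * n) * u ^ n)) := by rw [h5]; group
    _ = _ := by rw [← e3]; group

/-- the normal form of the unipotent radical -/
def NF (u h z : X) (x : X) : Prop := ∃ m n l : ℤ, x = u ^ m * (h * u * h⁻¹) ^ n * z ^ l

theorem nf_mul (R : BRel3 u h z a b i j k) {x y : X} (hx : NF u h z x) (hy : NF u h z y) : NF u h z (x * y) := by
  obtain ⟨m, n, l, rfl⟩ := hx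
  obtain ⟨m', n', l', rfl⟩ := hy
  have hv := R.vz
  have hs := R.swp n m'
  set v := h * u * h⁻¹ with hvd
  refine ⟨m + m', n + n', l + l' + -(b * n * m'), ?_⟩
  have c1 : ∀ s t : ℤ, z ^ s * u ^ t = u ^ t * z ^ s := fun s t => (R.uz.symm.zpow_zpow s t).eq
  have c2 : ∀ s t : ℤ, z ^ s * v ^ t = v ^ t * z ^ s := fun s t => (hv.symm.zpow_zpow s t).eq
  calc u ^ m * v ^ n * z ^ l * (u ^ m' * v ^ n' * z ^ l')
      = u ^ m * v ^ n * (z ^ l * u ^ m') * v ^ n' * z ^ l' := by group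
    _ = u ^ m * (v ^ n * u ^ m') * (z ^ l * v ^ n') * z ^ l' := by rw [c1]; group
    _ = u ^ m * (z ^ (-(b * n * m')) * u ^ m') * v ^ n * (v ^ n' * z ^ l) * z ^ l' := by rw [hs, c2]; group
    _ = u ^ m * u ^ m' * (z ^ (-(b * n * m')) * v ^ (n + n')) * z ^ l * z ^ l' := by rw [c1, _root_.zpow_add]; group
    _ = _ := by rw [c2, _root_.zpow_add, _root_.zpow_add, _root_.zpow_add]; group

theorem nf_one : NF u h z (1 : X) := ⟨0, 0, 0, by simp⟩

theorem nf_inv (R : BRel3 u h z a b i j k) {x : X} (hx : NF u h z x) : NF u h z x⁻¹ := by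
  obtain ⟨m, n, l, rfl⟩ := hx
  have e : (u ^ m * (h * u * h⁻¹) ^ n * z ^ l)⁻¹ =
      (u ^ (0 : ℤ) * (h * u * h⁻¹) ^ (0 : ℤ) * z ^ (-l)) * (u ^ (0 : ℤ) * (h * u * h⁻¹) ^ (-n) * z ^ (0 : ℤ)) *
        (u ^ (-m) * (h * u * h⁻¹) ^ (0 : ℤ) * z ^ (0 : ℤ)) := by
    group
  rw [e]
  exact R.nf_mul (R.nf_mul ⟨_, _, _, rfl⟩ ⟨_, _, _, rfl⟩) ⟨_, _, _, rfl⟩

/-- the unipotent radical -/
def N (R : BRel3 u h z a b i j k) : Subgroup X where
  carrier := {x | NF u h z x}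
  one_mem' := nf_one
  mul_mem' := R.nf_mul
  inv_mem' := R.nf_inv

theorem mem_N (R : BRel3 u h z a b i j k) {x : X} : x ∈ R.N ↔ NF u h z x := Iff.rfl

theorem N_conj (R : BRel3 u h z a b i j k) {x : X} (hx : x ∈ R.N) : h * x * h⁻¹ ∈ R.N := by
  obtain ⟨m, n, l, rfl⟩ := hx
  have e : h * (u ^ m * (h * u * h⁻¹) ^ n * z ^ l) * h⁻¹ =
      (h * u * h⁻¹) ^ m * (h * (h * u * h⁻¹) * h⁻¹) ^ n * (h * z * h⁻¹) ^ l := by
    have e1 : ∀ (y : X) (t : ℤ), (h * y * h⁻¹) ^ t = h * y ^ t * h⁻¹ := fun y t => conj_zpow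
    rw [e1 (h * u * h⁻¹), e1 z]
    rw [show h * (u ^ m * (h * u * h⁻¹) ^ n * z ^ l) * h⁻¹ = (h * u ^ m * h⁻¹) * (h * (h * u * h⁻¹) ^ n * h⁻¹) *
      (h * z ^ l * h⁻¹) by group, ← e1 u]
  rw [e]
  refine mul_mem (mul_mem (zpow_mem ?_ _) (zpow_mem ?_ _)) (zpow_mem ?_ _)
  · exact ⟨0, 1, 0, by simp⟩
  · rw [R.v2]; exact ⟨_, _, _, rfl⟩
  · rw [R.zh]; exact ⟨0, 0, -1, by simp⟩

theorem N_conj_zpow (R : BRel3 u h z a b i j k) (n : ℤ) {x : X} (hx : x ∈ R.N) : h ^ n * x * h ^ (-n) ∈ R.N := by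
  have key : ∀ n : ℕ, h ^ n * x * (h ^ n)⁻¹ ∈ R.N := by
    intro n
    induction n with
    | zero => simpa using hx
    | succ n ih =>
      have := R.N_conj ih
      rw [pow_succ']
      convert this using 1
      group
  have h1 : h ^ n = h ^ (n % 8).toNat := by
    have h8 : h ^ (8 : ℤ) = 1 := by rw [show (8 : ℤ) = ((8 : ℕ) : ℤ) by rfl, zpow_natCast, R.h8]
    have h2 : ((n % 8).toNat : ℤ) = n % 8 := Int.toNat_of_nonneg (Int.emod_nonneg _ (by norm_num))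
    rw [← zpow_natCast, h2]
    conv_lhs => rw [← Int.emod_add_mul_ediv n 8]
    rw [_root_.zpow_add, _root_.zpow_mul, h8, _root_.one_zpow, mul_one]
  rw [_root_.zpow_neg, h1]
  exact key _

theorem exists_nf (R : BRel3 u h z a b i j k) (hgen : Subgroup.closure {u, h} = ⊤) (x : X) :
    ∃ n : ℤ, ∃ y ∈ R.N, x = y * h ^ n := by
  have hx : x ∈ Subgroup.closure ({u, h} : Set X) := by rw [hgen]; trivial
  have hu : u ∈ R.N := ⟨1, 0, 0, by simp⟩
  induction hx using Subgroup.closure_induction_right with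
  | one => exact ⟨0, 1, one_mem _, by simp⟩
  | mul_right x hx y hy ih =>
    obtain ⟨n, a, ha, rfl⟩ := ih
    rcases hy with rfl | rfl
    · exact ⟨n, a * (h ^ n * y * h ^ (-n)), mul_mem ha (R.N_conj_zpow n hu), by group⟩
    · exact ⟨n + 1, a, ha, by group⟩
  | mul_inv_cancel x hx y hy ih =>
    obtain ⟨n, a, ha, rfl⟩ := ih
    rcases hy with rfl | rfl
    · exact ⟨n, a * (h ^ n * y * h ^ (-n))⁻¹, mul_mem ha (inv_mem (R.N_conj_zpow n hu)), by group⟩
    · exact ⟨n - 1, a, ha, by group⟩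

end BRel3

end abs

variable {F : Type*} [Field F] {σ : F →+* F} [hσ : Fact (∀ x, σ (σ x) = x)] [Finite F] {g : Fˣ}

section conc

variable (D : FQ σ 3 3 1 g)
include D

theorem three_zero : (3 : F) = 0 := by have := D.p_zero; exact_mod_cast this

theorem nu3 : nuF σ g = -1 := by
  have h1 : nuF σ g ^ 2 = 1 := by
    rw [D.nu_eq, ← Units.val_pow_eq_pow_val, ← pow_mul]
    have := D.g_pow
    norm_num at this ⊢
    rw [← Units.val_pow_eq_pow_val, this]; rfl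
  have h2 : nuF σ g ≠ 1 := by
    intro h
    rw [D.nu_eq] at h
    have h3 : g ^ (3 + 1) = 1 := Units.ext h
    have h4 := orderOf_dvd_of_pow_eq_one h3
    rw [D.order_g] at h4
    norm_num at h4
  have h3 : (nuF σ g - 1) * (nuF σ g + 1) = 0 := by linear_combination h1
  rcases mul_eq_zero.1 h3 with h | h
  · exact absurd (by linear_combination h) h2
  · linear_combination h

/-- elements of the fixed field are integers -/
theorem K3 (x : F) (hx : σ x = x) : ∃ n : ℤ, (n : F) = x := by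
  by_cases h0 : x = 0
  · exact ⟨0, by simp [h0]⟩
  · obtain ⟨n, hn⟩ := D.gen_K x hx h0
    rw [nu3 D] at hn
    refine ⟨if Even n then 1 else -1, ?_⟩
    rw [← hn]
    split
    · next h => rw [h.neg_one_zpow]; simp
    · next h => rw [Int.not_even_iff_odd] at h; rw [h.neg_one_zpow]; simp

omit [Finite F] D in
theorem a_zpow (x : HG σ) (n : ℤ) : (x ^ n).a = n * x.a := by
  have h : aHom σ (x ^ n) = aHom σ x ^ n := map_zpow _ _ _
  have h2 : (x ^ n).a = n • x.a := h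
  rw [h2, zsmul_eq_mul]

omit [Finite F] D in
theorem zp_zpow {κ : F} (hκ : σ κ = -κ) (n : ℤ) : ((zp κ hκ : HG σ) ^ n).b = n * κ := by
  have key : ∀ n : ℕ, ((zp κ hκ : HG σ) ^ n).b = n * κ := by
    intro n
    induction n with
    | zero => simp
    | succ n ih =>
      rw [pow_succ, mul_b, ih, zp_b, zp_a]
      simp; ring
  obtain ⟨m, rfl | rfl⟩ := Int.eq_nat_or_neg n
  · rw [zpow_natCast, key]; simp
  · rw [_root_.zpow_neg, zpow_natCast]
    have h1 : ((zp κ hκ : HG σ) ^ m * ((zp κ hκ : HG σ) ^ m)⁻¹).b = 0 := by rw [mul_inv_cancel]; rfl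
    rw [mul_b, a_pow] at h1
    simp only [zp_a, mul_zero, zero_mul, add_zero] at h1
    rw [key] at h1
    push_cast
    linear_combination h1

theorem z_of_a {κ : F} (hκ : σ κ = -κ) (hκ0 : κ ≠ 0) {x : HG σ} (hx : x.a = 0) :
    ∃ n : ℤ, x = (zp κ hκ : HG σ) ^ n := by
  have hb := sb_of_a hx
  obtain ⟨n, hn⟩ := K3 D (x.b / κ) (by rw [map_div₀, hκ, hb, neg_div_neg_eq])
  refine ⟨n, HG.ext ?_ ?_⟩
  · rw [a_zpow, hx]; simp
  · rw [zp_zpow, hn]; field_simp

theorem eq_ze (m n : ℤ) (h : (m : F) + n * zeF σ g = 0) : (m : F) = 0 ∧ (n : F) = 0 := by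
  have hn : (n : F) = 0 := by
    by_contra hn
    apply D.ze_not_mem le_rfl
    have : zeF σ g = -(m : F) / n := by rw [eq_div_iff hn]; linear_combination h
    rw [this, mem_KF, map_div₀, map_neg, map_intCast, map_intCast]
  refine ⟨?_, hn⟩
  rw [hn, zero_mul, add_zero] at h
  exact h

theorem dvd3 (n : ℤ) (h : (n : F) = 0) : ∃ m, n = 3 * m := by
  have := D.charP
  obtain ⟨m, hm⟩ := (CharP.intCast_eq_zero_iff F 3 n).1 h
  exact ⟨m, by exact_mod_cast hm⟩

/-- the relations in the group -/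
theorem brel3_SUG {x₀ : HG σ} (hx₀ : x₀.a = 1) {κ : F} (hκ : σ κ = -κ) (hκ0 : κ ≠ 0) :
    ∃ a b i j k : ℤ, BRel3 (emb σ x₀) (tor σ g) (emb σ (zp κ hκ)) a b i j k := by
  have h3 := three_zero D
  have hnu := nu3 D
  have hv : tor σ g * emb σ x₀ * (tor σ g)⁻¹ = emb σ (act g x₀) := tor_conj _ _
  have hva : (act g x₀).a = zeF σ g := by
    have := act_pow_a g 1 x₀
    rw [zpow_one, zpow_one, hx₀, mul_one] at this
    exact this
  have hvva : (act g (act g x₀)).a = zeF σ g ^ 2 := by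
    rw [act_a, hva, zeF]; ring
  obtain ⟨a, ha⟩ := z_of_a D hκ hκ0 (x := x₀ ^ 3) (by rw [a_pow, hx₀]; push_cast; linear_combination h3)
  obtain ⟨b, hb⟩ := z_of_a D hκ hκ0 (x := x₀ * act g x₀ * x₀⁻¹ * (act g x₀)⁻¹)
    (by rw [mul_a, mul_a, mul_a, a_inv, a_inv]; ring)
  obtain ⟨s, hs, t, ht, hst⟩ := D.ze_sq
  obtain ⟨i, rfl⟩ := K3 D s hs
  obtain ⟨j, rfl⟩ := K3 D t ht
  obtain ⟨k, hk⟩ := z_of_a D hκ hκ0 (x := (x₀ ^ i * act g x₀ ^ j)⁻¹ * act g (act g x₀)) (by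
    rw [mul_a, a_inv, mul_a, a_zpow, a_zpow, hx₀, hva, hvva, hst]; ring)
  refine ⟨a, b, i, j, k, ?_, ?_, ?_, ?_, ?_, ?_, ?_⟩
  · have := D.g_pow
    norm_num at this
    rw [← map_pow, this, map_one]
  · rw [← map_pow]
    have h1 : (zp κ hκ : HG σ) ^ 3 = 1 := by
      have := zp_zpow hκ (σ := σ) 3
      have h2 : ((zp κ hκ : HG σ) ^ 3).b = 0 := by
        have e : (zp κ hκ : HG σ) ^ (3 : ℕ) = (zp κ hκ : HG σ) ^ (3 : ℤ) := by
          rw [show (3 : ℤ) = ((3 : ℕ) : ℤ) by rfl, zpow_natCast]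
        rw [e, this]; push_cast; rw [h3, zero_mul]
      refine HG.ext ?_ h2
      rw [a_pow]; simp
    rw [h1, map_one]
  · rw [tor_conj, ← map_inv]
    congr 1
    refine HG.ext ?_ ?_
    · rw [act_a, a_inv]; simp
    · have h1 := zp_zpow hκ (σ := σ) (-1)
      rw [_root_.zpow_neg, zpow_one] at h1
      rw [h1, act_b]
      have h2 : (g : F) * σ g = -1 := hnu
      rw [h2]; simp
  · rw [Commute, SemiconjBy, ← map_mul, ← map_mul]
    congr 1
    refine HG.ext ?_ ?_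
    · simp
    · simp only [mul_b, zp_b, zp_a, map_zero]; ring
  · rw [← map_pow, ← map_zpow, ha]
  · rw [hv, ← map_mul, ← map_inv, ← map_mul, ← map_zpow, ← map_mul, ← hb]
    congr 1; group
  · have e : emb σ x₀ ^ i * emb σ (act g x₀) ^ j * emb σ (zp κ hκ) ^ k =
        emb σ (x₀ ^ i * (act g x₀) ^ j * (zp κ hκ) ^ k) := by
      rw [map_mul, map_mul, map_zpow (emb σ), map_zpow (emb σ), map_zpow (emb σ)]
    rw [hv, tor_conj, e, ← hk]
    congr 1; group

/-- injectivity -/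
theorem borel3_injective {X : Type*} [Group X] {u h z : X} {a b i j k : ℤ} (R : BRel3 u h z a b i j k)
    (φ : X →* SUG σ) {x₀ : HG σ} (hx₀ : x₀.a = 1) {κ : F} (hκ : σ κ = -κ) (hκ0 : κ ≠ 0)
    (φu : φ u = emb σ x₀) (φh : φ h = tor σ g) (φz : φ z = emb σ (zp κ hκ))
    (hgen : Subgroup.closure {u, h} = ⊤) : Function.Injective φ := by
  have hv : φ (h * u * h⁻¹) = emb σ (act g x₀) := by rw [map_mul, map_mul, map_inv, φu, φh]; exact tor_conj _ _
  have hva : (act g x₀).a = zeF σ g := by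
    have := act_pow_a g 1 x₀
    rw [zpow_one, zpow_one, hx₀, mul_one] at this
    exact this
  rw [injective_iff_map_eq_one]
  intro x hx
  obtain ⟨n, y, ⟨m, l, s, rfl⟩, rfl⟩ := R.exists_nf hgen x
  have hemb : φ (u ^ m * (h * u * h⁻¹) ^ l * z ^ s) = emb σ (x₀ ^ m * act g x₀ ^ l * (zp κ hκ) ^ s) := by
    rw [map_mul, map_mul, map_zpow, map_zpow, map_zpow, hv, φu, φz, map_mul, map_mul, map_zpow, map_zpow, map_zpow]
  have hg1 : g ^ n = 1 := by
    generalize x₀ ^ m * act g x₀ ^ l * (zp κ hκ : HG σ) ^ s = x' at hemb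
    rw [map_mul, hemb, map_zpow φ, φh, ← map_zpow (tor σ)] at hx
    have hM : umat x' * tmat σ (g ^ n) = 1 := congrArg (fun g : SUG σ => g.1.1) hx
    have e0 := congrFun (congrFun hM 0) 0
    simp [tmat, umat, Matrix.mul_apply, Fin.sum_univ_three] at e0
    exact Units.ext (by push_cast; exact e0)
  have hh1 : h ^ n = 1 := by
    rw [← orderOf_dvd_iff_zpow_eq_one, D.order_g] at hg1
    obtain ⟨k, hk⟩ := hg1
    have h8 := R.h8
    rw [hk, _root_.zpow_mul, zpow_natCast]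
    norm_num
    rw [h8, _root_.one_zpow]
  rw [hh1, mul_one] at hx ⊢
  rw [hemb, ← map_one (emb σ)] at hx
  have hx' := emb_injective hx
  have ha := congrArg HG.a hx'
  rw [mul_a, mul_a, a_zpow, a_zpow, a_zpow, hx₀, hva] at ha
  simp only [mul_one, zp_a, mul_zero, add_zero, one_a] at ha
  obtain ⟨hm0, hl0⟩ := eq_ze D m l ha
  obtain ⟨m, rfl⟩ := dvd3 D m hm0
  obtain ⟨l, rfl⟩ := dvd3 D l hl0
  have c3 : ∀ (y : X) (t : ℤ), y ^ (3 * t) = (y ^ 3) ^ t := by
    intro y t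
    rw [_root_.zpow_mul, show (3 : ℤ) = ((3 : ℕ) : ℤ) by rfl, zpow_natCast]
  have e1 : u ^ (3 * m) = z ^ (a * m) := by rw [c3, R.u3, ← _root_.zpow_mul]
  have e2 : (h * u * h⁻¹) ^ (3 * l) = z ^ (-(a * l)) := by
    have h4 : (h * u * h⁻¹) ^ 3 = h * u ^ 3 * h⁻¹ := conj_pow
    rw [c3, h4, R.u3, ← conj_zpow, R.zh, ← _root_.zpow_mul, _root_.inv_zpow, ← _root_.zpow_neg]
  rw [e1, e2, ← _root_.zpow_add, ← _root_.zpow_add]
  set w := a * m + -(a * l) + s with hw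
  have hb : emb σ ((zp κ hκ : HG σ) ^ w) = 1 := by
    rw [map_zpow, ← φz, ← map_zpow, hw, _root_.zpow_add, _root_.zpow_add, ← e1, ← e2, hemb, hx', map_one]
  rw [← map_one (emb σ)] at hb
  have hb' := congrArg HG.b (emb_injective hb)
  rw [zp_zpow, one_b] at hb'
  obtain ⟨w', hw'⟩ := dvd3 D w ((mul_eq_zero.1 hb').resolve_right hκ0)
  rw [hw', c3, R.z3, _root_.one_zpow]

/-- the presentation of the Borel subgroup -/
theorem borel_pres3 {x₀ : HG σ} (hx₀ : x₀.a = 1) :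
    ∃ R : List (FreeGroup (Fin 2)), R.length = 7 ∧
      (FreeGroup.lift ![emb σ x₀, tor σ g]).ker = Subgroup.normalClosure {r | r ∈ R} := by
  obtain ⟨κ, hκ0, hκ⟩ := D.exists_kappa
  obtain ⟨a, b, i, j, k, B⟩ := brel3_SUG D hx₀ hκ hκ0
  set f : FreeGroup (Fin 2) →* SUG σ := FreeGroup.lift ![emb σ x₀, tor σ g] with hf
  set x : FreeGroup (Fin 2) := FreeGroup.of 0 with hx
  set y : FreeGroup (Fin 2) := FreeGroup.of 1 with hy
  have fx : f x = emb σ x₀ := by simp [hf, hx]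
  have fy : f y = tor σ g := by simp [hf, hy]
  obtain ⟨Z, hZ, fZ⟩ : ∃ Z ∈ orb y x, f Z = emb σ (zp κ hκ) := by
    have h1 := z_mem_orb D le_rfl hx₀ hκ
    rw [← fx, ← fy, ← map_orb f] at h1
    exact h1
  rw [← fx, ← fy, ← fZ] at B
  let R : List (FreeGroup (Fin 2)) :=
    [y ^ 8, Z ^ 3, (Z⁻¹)⁻¹ * (y * Z * y⁻¹), (Z * x)⁻¹ * (x * Z), (Z ^ a)⁻¹ * x ^ 3,
      (Z ^ b * (y * x * y⁻¹))⁻¹ * (x * (y * x * y⁻¹) * x⁻¹),
      (x ^ i * (y * x * y⁻¹) ^ j * Z ^ k)⁻¹ * (y * (y * x * y⁻¹) * y⁻¹)]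
  refine ⟨R, rfl, ?_⟩
  have hR : ∀ r ∈ R, f r = 1 := by
    intro r hr
    simp only [R, List.mem_cons, List.not_mem_nil, or_false] at hr
    rcases hr with rfl | rfl | rfl | rfl | rfl | rfl | rfl
    · rw [map_pow]; exact B.h8
    · rw [map_pow]; exact B.z3
    · rw [map_mul, map_inv, inv_mul_eq_one]; simp only [map_mul, map_inv]; exact B.zh.symm
    · rw [map_mul, map_inv, inv_mul_eq_one]; simp only [map_mul]; exact B.uz.eq.symm
    · rw [map_mul, map_inv, inv_mul_eq_one, map_pow, map_zpow]; exact B.u3.symm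
    · rw [map_mul, map_inv, inv_mul_eq_one]; simp only [map_mul, map_inv, map_zpow]; exact B.uv.symm
    · rw [map_mul, map_inv, inv_mul_eq_one]; simp only [map_mul, map_inv, map_zpow]; exact B.v2.symm
  have hle : Subgroup.normalClosure {r | r ∈ R} ≤ f.ker := Subgroup.normalClosure_le_normal fun r hr => hR r hr
  refine le_antisymm ?_ hle
  set N := Subgroup.normalClosure {r | r ∈ R} with hN
  let m := QuotientGroup.mk' N
  have hm : ∀ r ∈ R, m r = 1 := fun r hr => (QuotientGroup.eq_one_iff r).2 (Subgroup.subset_normalClosure hr)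
  have hm2 : ∀ s t : FreeGroup (Fin 2), s⁻¹ * t ∈ R → m t = m s := by
    intro s t h
    have := hm _ h
    rw [map_mul, map_inv, inv_mul_eq_one] at this
    exact this.symm
  have BR : BRel3 (m x) (m y) (m Z) a b i j k := by
    refine ⟨?_, ?_, ?_, ?_, ?_, ?_, ?_⟩
    · rw [← map_pow]; exact hm _ (by simp [R])
    · rw [← map_pow]; exact hm _ (by simp [R])
    · have := hm2 Z⁻¹ (y * Z * y⁻¹) (by simp [R])
      simpa only [map_mul, map_inv] using this
    · have := hm2 (Z * x) (x * Z) (by simp [R])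
      rw [Commute, SemiconjBy]
      simpa only [map_mul, map_inv] using this
    · have := hm2 (Z ^ a) (x ^ 3) (by simp [R])
      simpa only [map_pow, map_zpow] using this
    · have := hm2 (Z ^ b * (y * x * y⁻¹)) (x * (y * x * y⁻¹) * x⁻¹) (by simp [R])
      simpa only [map_mul, map_inv, map_zpow] using this
    · have := hm2 (x ^ i * (y * x * y⁻¹) ^ j * Z ^ k) (y * (y * x * y⁻¹) * y⁻¹) (by simp [R])
      simpa only [map_mul, map_inv, map_zpow] using this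
  have hinj := borel3_injective D BR (QuotientGroup.lift N f hle) hx₀ hκ hκ0 fx fy fZ (by
    rw [← Set.image_pair, ← MonoidHom.map_closure]
    have : Subgroup.closure ({x, y} : Set (FreeGroup (Fin 2))) = ⊤ := by
      rw [← FreeGroup.closure_range_of]
      congr 1
      ext z
      constructor
      · rintro (rfl | rfl)
        · exact ⟨0, rfl⟩
        · exact ⟨1, rfl⟩
      · rintro ⟨i, rfl⟩
        fin_cases i
        · exact Or.inl rfl
        · exact Or.inr rfl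
    rw [this, ← MonoidHom.range_eq_map, MonoidHom.range_eq_top]
    exact QuotientGroup.mk'_surjective N)
  intro z hz
  have h1 : m z = 1 := by
    apply hinj
    rw [map_one]; exact hz
  exact (QuotientGroup.eq_one_iff z).1 h1

end conc

/-- **`SU₃(3)`: 3 generators and 13 relators.** -/
theorem pres_SU3_three {F : Type*} [Field F] [Finite F] (hF : Nat.card F = 3 ^ 2) :
    HasPres (Cfsg.SU 3 F 3) 3 13 := by
  obtain ⟨σ, p, e, g, D⟩ := exists_FQ hF
  have hσ : Fact (∀ x, σ (σ x) = x) := ⟨D.sq_sig⟩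
  have hpe : p = 3 ∧ e = 1 := by
    have h1 := D.qp
    have h2 : p ∣ 3 := by rw [h1]; exact dvd_pow_self p D.e_pos.ne'
    have h3 : p = 3 := (Nat.prime_dvd_prime_iff_eq D.prime Nat.prime_three).1 h2
    refine ⟨h3, ?_⟩
    rw [h3] at h1
    have h4 : 3 ^ 1 = 3 ^ e := by rw [← h1]; norm_num
    exact (Nat.pow_right_injective (le_refl 2 |>.trans (by norm_num)) h4).symm
  obtain ⟨rfl, rfl⟩ := hpe
  obtain ⟨E⟩ := sug_equiv D
  exact (pres_SUG_of D le_rfl fun x₀ hx₀ => borel_pres3 D hx₀).of_mulEquiv E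

end Cfsg.Agent.H112
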